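import Cfsg.Agent.A9R.TA

/-! The amalgam step: `Alt(9)` from two copies of `Alt(6)`. (helper12) -/

set_option autoImplicit false
set_option maxRecDepth 100000
set_option linter.unusedSectionVars false

namespace Cfsg.Agent.A9R

open Subgroup Equiv

/-- the 3-cycle `i ↦ u ↦ v` in an alternating group -/
def amc {n : ℕ} (i u v : Fin n) (h : i ≠ u ∧ u ≠ v := by decide) : alternatingGroup (Fin n) :=
  ⟨Pres.c3 i u v, Perm.mem_alternatingGroup.2 (by simp [Pres.c3, h.1, h.2])⟩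

/-- `Alt(6)` on six of nine points -/
def amE (f : Fin 6 ↪ Fin 9) : alternatingGroup (Fin 6) →* alternatingGroup (Fin 9) :=
  ((Perm.extendDomainHom f.toEquivRange).comp (alternatingGroup (Fin 6)).subtype).codRestrict _ fun π =>
    Perm.mem_alternatingGroup.2 ((Perm.viaFintypeEmbedding_sign π.1 f).trans (Perm.mem_alternatingGroup.1 π.2))

theorem amE_app (f : Fin 6 ↪ Fin 9) (π : alternatingGroup (Fin 6)) (i : Fin 6) : (amE f π).1 (f i) = f (π.1 i) :=
  Perm.viaFintypeEmbedding_apply_image π.1 f i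

theorem amE_out (f : Fin 6 ↪ Fin 9) (π : alternatingGroup (Fin 6)) {j : Fin 9} (h : ∀ i, f i ≠ j) : (amE f π).1 j = j :=
  Perm.viaFintypeEmbedding_apply_notMem_range π.1 f fun ⟨i, e⟩ => h i e

theorem amE_eq (f : Fin 6 ↪ Fin 9) (π : alternatingGroup (Fin 6)) (p : alternatingGroup (Fin 9))
    (h1 : ∀ i, p.1 (f i) = f (π.1 i)) (h2 : ∀ j, (∀ i, f i ≠ j) → p.1 j = j) : amE f π = p := by
  refine Subtype.ext (Equiv.ext fun j => ?_)
  by_cases h : ∀ i, f i ≠ j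
  · rw [amE_out f π h, h2 j h]
  · push Not at h
    obtain ⟨i, rfl⟩ := h
    rw [amE_app, h1]

/-- the points `0..5` -/
def amLo : Fin 6 ↪ Fin 9 := ⟨![0, 1, 2, 3, 4, 5], by decide⟩
/-- the points `3..8` -/
def amHi : Fin 6 ↪ Fin 9 := ⟨![3, 4, 5, 6, 7, 8], by decide⟩

theorem am {G : Type*} [Group G] (σ τ : alternatingGroup (Fin 6) →* G) (τ1 : τ (amc 2 0 1) ≠ 1)
    (hy : ∀ π, σ π * τ (amc 2 0 1) = τ (amc 2 0 1) * σ π)
    (hx : ∀ π, π.1 0 = 0 → σ π * τ (amc 3 0 1) = τ (amc 3 0 1) * σ π) (hc : σ (amc 0 1 2) = τ (amc 3 4 5)) :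
    ∃ φ : alternatingGroup (Fin 9) →* G, Function.Injective φ ∧ (∀ π, φ (amE amHi π) = σ π) ∧ ∀ π, φ (amE amLo π) = τ π := by
  have t2 : ∀ i j : Fin 6, i ≠ j → ∃ π : alternatingGroup (Fin 6), π.1 0 = i ∧ π.1 1 = j := fun i j ij => by
    obtain ⟨b, h1, h2⟩ := (by decide +kernel : ∀ i j : Fin 6, i ≠ j → ∃ b : Bool,
      Perm.sign (swap 0 i * swap 1 (swap 0 i j) * (bif b then swap 2 3 else 1)) = 1 ∧
      (swap 0 i * swap 1 (swap 0 i j) * (bif b then swap 2 3 else 1) : Perm (Fin 6)) 0 = i ∧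
      (swap 0 i * swap 1 (swap 0 i j) * (bif b then swap 2 3 else 1) : Perm (Fin 6)) 1 = j) i j ij
    exact ⟨⟨_, Perm.mem_alternatingGroup.2 h1⟩, h2⟩
  have t1 : ∀ i : Fin 6, ∃ π : alternatingGroup (Fin 6), π.1 0 = i := fun i =>
    (t2 i (i + 1) ((by decide : ∀ i : Fin 6, i ≠ i + 1) i)).imp fun _ h => h.1
  choose k hk using t1
  set y := τ (amc 2 0 1) with hy0
  set x0 := τ (amc 3 0 1) with hx0
  let X : Fin 6 → G := fun j => σ (k j) * x0 * (σ (k j))⁻¹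
  have wd : ∀ π : alternatingGroup (Fin 6), σ π * x0 * (σ π)⁻¹ = X (π.1 0) := fun π => by
    have e := hx ((k (π.1 0))⁻¹ * π) (by
      show (k (π.1 0)).1⁻¹ (π.1 0) = 0
      rw [Perm.inv_eq_iff_eq, hk])
    rw [map_mul, map_inv] at e
    show _ = σ (k (π.1 0)) * x0 * (σ (k (π.1 0)))⁻¹
    calc _ = σ (k (π.1 0)) * ((σ (k (π.1 0)))⁻¹ * σ π * x0) * (σ π)⁻¹ := by group
      _ = _ := by rw [e]; group
  have hX : ∀ (π : alternatingGroup (Fin 6)) j, σ π * X j * (σ π)⁻¹ = X (π.1 j) := fun π j => by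
    have e := wd (π * k j)
    rw [map_mul, show (π * k j).1 0 = π.1 j by rw [← hk j]; simp [hk]] at e
    rw [← e]
    show σ π * (σ (k j) * x0 * (σ (k j))⁻¹) * _ = _
    group
  have X0 : X 0 = x0 := by have := wd 1; simpa using this.symm
  have X1 : X 1 = τ (amc 4 0 1) := by
    have e := hX (amc 0 1 2) 0
    rw [X0, hc, hx0, ← map_inv, ← map_mul, ← map_mul] at e
    exact e.symm.trans (congrArg τ (by decide +kernel))
  have X2 : X 2 = τ (amc 5 0 1) := by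
    have e := hX (amc 0 1 2) 1
    rw [X1, hc, ← map_inv, ← map_mul, ← map_mul] at e
    exact e.symm.trans (congrArg τ (by decide +kernel))
  have cp : ∀ (g a b : G) (n : ℕ), (a * b) ^ n = 1 → (g * a * g⁻¹ * (g * b * g⁻¹)) ^ n = 1 := fun g a b n h => by
    rw [show g * a * g⁻¹ * (g * b * g⁻¹) = g * (a * b) * g⁻¹ by group, conj_pow, h]; group
  have yc : ∀ π, σ π * y * (σ π)⁻¹ = y := fun π => by rw [hy]; group
  have pt : ∀ (p : alternatingGroup (Fin 6)) (n : ℕ), p ^ n = 1 → τ p ^ n = 1 := fun p n h => by rw [← map_pow, h, map_one]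
  have r1 : ∀ j, (y * X j) ^ 2 = 1 := fun j => by
    have := cp (σ (k j)) y x0 2 (by rw [hy0, hx0, ← map_mul]; exact pt _ _ (by decide +kernel))
    rwa [yc] at this
  have r2 : ∀ j, (X j * y) ^ 2 = 1 := fun j => by
    have := cp (σ (k j)) x0 y 2 (by rw [hy0, hx0, ← map_mul]; exact pt _ _ (by decide +kernel))
    rwa [yc] at this
  have r3 : ∀ i j, i ≠ j → (X i * X j) ^ 2 = 1 := fun i j ij => by
    obtain ⟨π, rfl, rfl⟩ := t2 i j ij
    rw [← hX, ← hX]
    exact cp _ _ _ 2 (by rw [X0, X1, hx0, ← map_mul]; exact pt _ _ (by decide +kernel))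
  let d : Fin 9 → Fin 6 := ![0, 0, 0, 0, 1, 2, 3, 4, 5]
  obtain ⟨φ, inj, hφ, hK⟩ := toA9 (u := 0) (v := 1) (by decide) (fun i => if i = 2 then y else X (d i))
    (fun i _ _ => by
      split_ifs
      · exact pt _ _ (by decide +kernel)
      · show (σ _ * x0 * _) ^ 3 = 1
        rw [conj_pow, pt _ _ (by decide +kernel)]; group)
    (fun i j a b c e f => by
      split_ifs with h1 h2 h2
      · exact absurd (h1.trans h2.symm) f
      · exact r1 _
      · exact r2 _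
      · exact r3 _ _ ((by decide : ∀ i j : Fin 9, i ≠ 0 → i ≠ 1 → j ≠ 0 → j ≠ 1 → i ≠ j → i ≠ 2 → j ≠ 2 →
          (![0, 0, 0, 0, 1, 2, 3, 4, 5] : Fin 9 → Fin 6) i ≠ (![0, 0, 0, 0, 1, 2, 3, 4, 5] : Fin 9 → Fin 6) j) i j a b c e f h1 h2))
    ⟨2, by decide, by decide, τ1⟩
  have lo : ∀ π, φ (amE amLo π) = τ π := fun π => by
    have := Pres.altOn_le (S := Finset.univ) (u := (0 : Fin 6)) (v := 1) (by decide)
      (P := ((φ.comp (amE amLo)).eqLocus τ).map (alternatingGroup (Fin 6)).subtype) (fun i _ a b => by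
        refine ⟨amc i 0 1 ⟨a, by decide⟩, ?_, rfl⟩
        have e : amE amLo (amc i 0 1 ⟨a, by decide⟩) = amc (amLo i) 0 1 ⟨by revert i; decide, by decide⟩ :=
          amE_eq _ _ _ (by show ∀ j, Pres.c3 (amLo i) 0 1 (amLo j) = amLo (Pres.c3 i 0 1 j); revert i; decide +kernel)
            (by show ∀ j, _ → Pres.c3 (amLo i) 0 1 j = j; revert i; decide +kernel)
        show φ (amE amLo _) = τ _
        rw [e, hφ (amLo i) _ (by revert i; decide) (by revert i; decide) rfl]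
        obtain rfl | rfl | rfl | rfl := (by decide : ∀ i : Fin 6, i ≠ 0 → i ≠ 1 → i = 2 ∨ i = 3 ∨ i = 4 ∨ i = 5) i a b
        exacts [rfl, X0, X1, X2])
    obtain ⟨p, hp, e⟩ := this (Pres.altOn_univ.ge π.2)
    obtain rfl : p = π := Subtype.ext e
    exact hp
  refine ⟨φ, inj, fun π => ?_, lo⟩
  have cen : ∀ ρ p, (σ ρ)⁻¹ * φ (amE amHi ρ) * φ p = φ p * ((σ ρ)⁻¹ * φ (amE amHi ρ)) := fun ρ p => by
    refine mem_centralizer_iff.1 (hK (centralizer {(σ ρ)⁻¹ * φ (amE amHi ρ)}) (fun i a b => ?_) ⟨p, rfl⟩) _ rfl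
    have o : ∀ j : Fin 9, j = 0 ∨ j = 1 ∨ j = 2 → (amE amHi ρ).1 j = j := fun j hj => amE_out _ _ (by revert j; decide)
    have ne : ∀ j : Fin 9, j = 0 ∨ j = 1 ∨ j = 2 → i ≠ j → (amE amHi ρ).1 i ≠ j := fun j hj h e =>
      h ((amE amHi ρ).1.injective (e.trans (o j hj).symm))
    have e := hφ ((amE amHi ρ).1 i) (amE amHi ρ * amc i 0 1 ⟨a, by decide⟩ * (amE amHi ρ)⁻¹) (ne 0 (by simp) a) (ne 1 (by simp) b)
      (by have := Pres.conj_c3 (amE amHi ρ).1 i 0 1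
          rwa [o 0 (by simp), o 1 (by simp)] at this)
    rw [map_mul, map_mul, map_inv, hφ i (amc i 0 1 ⟨a, by decide⟩) a b rfl] at e
    have e2 : σ ρ * (if i = 2 then y else X (d i)) * (σ ρ)⁻¹ =
        if (amE amHi ρ).1 i = 2 then y else X (d ((amE amHi ρ).1 i)) := by
      by_cases h : i = 2
      · rw [if_pos h, if_pos (h ▸ o 2 (by simp)), yc]
      · rw [if_neg h, if_neg (ne 2 (by simp) h), hX]
        obtain ⟨m, rfl⟩ := (by decide : ∀ i : Fin 9, i ≠ 0 → i ≠ 1 → i ≠ 2 → ∃ m, i = amHi m) i a b h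
        have dm : ∀ m, d (amHi m) = m := by decide
        rw [amE_app, dm, dm]
    refine mem_centralizer_iff.2 ?_
    rintro _ rfl
    rw [← e2] at e
    generalize (if i = 2 then y else X (d i)) = z at e ⊢
    calc _ = (σ ρ)⁻¹ * (φ (amE amHi ρ) * z * (φ (amE amHi ρ))⁻¹) * φ (amE amHi ρ) := by group
      _ = _ := by rw [e]; group
  have nm : ((φ.comp (amE amHi)).eqLocus σ).Normal := ⟨fun p hp ρ => by
    have hp' : φ (amE amHi p) = σ p := hp
    show φ (amE amHi (ρ * p * ρ⁻¹)) = σ (ρ * p * ρ⁻¹)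
    simp only [map_mul, map_inv]
    rw [← hp']
    calc _ = σ ρ * ((σ ρ)⁻¹ * φ (amE amHi ρ) * φ (amE amHi p)) * (φ (amE amHi ρ))⁻¹ := by group
      _ = _ := by rw [cen]; group⟩
  have := alternatingGroup.isSimpleGroup (α := Fin 6) (by simp)
  rcases nm.eq_bot_or_eq_top with h | h
  · have m : amc 0 1 2 ∈ (φ.comp (amE amHi)).eqLocus σ := by
      show φ (amE amHi _) = σ _
      rw [hc, ← lo, amE_eq amHi (amc 0 1 2) (amc 3 4 5) (by decide +kernel) (by decide +kernel),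
        amE_eq amLo (amc 3 4 5) (amc 3 4 5) (by decide +kernel) (by decide +kernel)]
    rw [h, mem_bot] at m
    exact absurd m (by decide +kernel)
  · exact (h.ge (mem_top π) : π ∈ (φ.comp (amE amHi)).eqLocus σ)

end Cfsg.Agent.A9R
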