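import Cfsg.Agent.ST.Main
import Cfsg.Agent.Invol.ZS

/-! The centralizer of an element of type `3²` lies in `N(J)` (helper16). -/

set_option autoImplicit false

namespace Cfsg.Agent.A9R

open Subgroup

theorem cb_three {Y : Type*} [Group Y] {a : Y} (h3 : a ^ 3 = 1) (h : a = a⁻¹) : a = 1 := by
  have h2 : a * a = 1 := by nth_rewrite 2 [h]; exact mul_inv_cancel a
  calc a = a * a * a := by rw [h2, one_mul]
    _ = 1 := by rw [← h3, pow_succ, pow_two]

theorem cb1 {Y : Type*} [Group Y] [Finite Y] (P : Sylow 3 Y) {s : Y} (card : Nat.card (P : Subgroup Y) = 9)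
    (exp : ∀ a ∈ (P : Subgroup Y), a ^ 3 = 1) (comm : IsMulCommutative (P : Subgroup Y))
    (inv : ∀ a ∈ (P : Subgroup Y), s * a * s⁻¹ = a⁻¹)
    (hN : ∀ g ∈ normalizer ((P : Subgroup Y) : Set Y), g ∈ (P : Subgroup Y) ∨ g * s⁻¹ ∈ (P : Subgroup Y))
    (hO : pPrimeCore 3 Y = ⊥) : (P : Subgroup Y).Normal := by
  haveI : Fact (Nat.Prime 3) := ⟨Nat.prime_three⟩
  have cm : ∀ a ∈ (P : Subgroup Y), ∀ b ∈ (P : Subgroup Y), a * b = b * a := fun a ha b hb =>
    congrArg Subtype.val (comm.is_comm.comm (⟨a, ha⟩ : (P : Subgroup Y)) ⟨b, hb⟩)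
  have hnc : ¬ IsCyclic (P : Subgroup Y) := by
    rintro ⟨g, hg⟩
    have h1 : orderOf g = 9 := by rw [orderOf_eq_card_of_forall_mem_zpowers hg, card]
    have h2 : orderOf g ∣ 3 := orderOf_dvd_of_pow_eq_one (Subtype.ext (exp g g.2))
    rw [h1] at h2
    omega
  have sN : s ∈ normalizer ((P : Subgroup Y) : Set Y) :=
    mem_normalizer_fintype fun a ha => by rw [inv a ha]; exact inv_mem ha
  have sC : s ∉ centralizer ((P : Subgroup Y) : Set Y) := by
    intro h
    have : (P : Subgroup Y) = ⊥ := by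
      rw [eq_bot_iff]
      intro a ha
      refine cb_three (exp a ha) ?_
      rw [← inv a ha, ← mem_centralizer_iff.1 h a ha, mul_inv_cancel_right]
    rw [this, card_bot] at card
    omega
  have PC : (P : Subgroup Y) ≤ centralizer ((P : Subgroup Y) : Set Y) := fun a ha =>
    mem_centralizer_iff.2 fun b hb => cm b hb a ha
  have h2 : (centralizer ((P : Subgroup Y) : Set Y)).relIndex (normalizer ((P : Subgroup Y) : Set Y)) = 2 := by
    rw [relIndex, index_eq_two_iff]
    refine ⟨⟨s, sN⟩⁻¹, fun g => ?_⟩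
    simp only [mem_subgroupOf, coe_mul, coe_inv]
    rcases hN g g.2 with h | h
    · refine Or.inr ⟨PC h, fun h' => sC ?_⟩
      simpa using mul_mem (inv_mem h') (PC h)
    · refine Or.inl ⟨PC h, fun h' => sC ?_⟩
      simpa using mul_mem (inv_mem (PC h)) h'
  have ss : s * s = 1 := by
    rcases hN _ (mul_mem sN sN) with h | h
    · refine cb_three (exp _ h) ?_
      rw [← inv _ h]
      group
    · exact absurd (PC (by simpa using h)) sC
  have inR : ∀ y : Y, y * y = 1 → y ∈ pResidual 3 Y := fun y hy => subset_closure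
    (Nat.Coprime.coprime_dvd_left (orderOf_dvd_of_pow_eq_one (n := 2) (by rw [pow_two, hy])) (by norm_num))
  have hG : pResidual 3 Y = ⊤ := by
    rw [← Transfer.pResidual_sup_sylow P, eq_comm, sup_eq_left]
    intro a ha
    have e : a * s * (a * s) = 1 := by
      calc a * s * (a * s) = a * (s * a * s⁻¹) * (s * s) := by group
        _ = 1 := by rw [inv a ha, ss]; group
    simpa using mul_mem (inR _ e) (inv_mem (inR _ ss))
  have h := ST.smith_tyrer (by norm_num) P comm hnc h2 hG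
  rw [PLocal.pLengthLE_succ_iff, PLocal.pLengthLE_zero_iff] at h
  have e : pPrimePCore 3 Y = pCore 3 Y :=
    Solv.comap_pCore (QuotientGroup.mk'_surjective _) (by rw [QuotientGroup.ker_mk', hO]; exact IsPGroup.of_bot)
  have e2 : (P : Subgroup Y) = pPrimePCore 3 Y := by
    refine le_antisymm (fun a ha => ?_) (e ▸ Solv.pCore_le_sylow P)
    rw [← QuotientGroup.eq_one_iff, ← orderOf_eq_one_iff]
    refine Nat.eq_one_of_dvd_coprimes h (orderOf_dvd_natCard _) (orderOf_dvd_of_pow_eq_one ?_)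
    rw [← QuotientGroup.mk_pow, exp a ha, QuotientGroup.mk_one]
  rw [e2]
  infer_instance

theorem cb0 {X : Type*} [Group X] [Finite X] {J : Subgroup X} {b r : X} (comm : ∀ a ∈ J, ∀ c ∈ J, a * c = c * a)
    (exp : ∀ a ∈ J, a ^ 3 = 1) (card : Nat.card J = 27) (hb : b ∈ J) (b1 : b ≠ 1) (bz : ∀ g, g * b = b * g)
    (h81 : ¬ 81 ∣ Nat.card X) (hO : pPrimeCore 3 X = ⊥) (inv : ∀ j ∈ J, r * j * r⁻¹ * j ∈ zpowers b)
    (hN : ∀ g ∈ normalizer (J : Set X), g ∈ J ∨ g * r⁻¹ ∈ J) : J.Normal := by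
  haveI : Fact (Nat.Prime 3) := ⟨Nat.prime_three⟩
  have hZ : zpowers b ≤ center X := zpowers_le.2 (mem_center_iff.2 bz)
  haveI : (zpowers b).Normal := ⟨fun n hn g => by rw [mem_center_iff.1 (hZ hn) g, mul_inv_cancel_right]; exact hn⟩
  have cZ : Nat.card (zpowers b) = 3 := by rw [Nat.card_zpowers]; exact orderOf_eq_prime (exp b hb) b1
  have ZJ : zpowers b ≤ J := zpowers_le.2 hb
  set π := QuotientGroup.mk' (zpowers b) with hπ
  have cm : (J.map π).comap π = J := comap_map_eq_self (by rw [hπ, QuotientGroup.ker_mk']; exact ZJ)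
  have hi : (J.map π).index = J.index := by
    rw [← index_comap_of_surjective _ (QuotientGroup.mk'_surjective (zpowers b)), cm]
  have c1 := J.card_mul_index
  have c2 := (J.map π).card_mul_index
  have c3 := (zpowers b).card_eq_card_quotient_mul_card_subgroup
  have i0 : J.index ≠ 0 := index_ne_zero_of_finite
  rw [hi] at c2
  rw [card] at c1
  rw [cZ, ← c2, ← c1] at c3
  have c9 : Nat.card (J.map π) = 9 := by
    have : Nat.card (J.map π) * J.index = 9 * J.index := by omega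
    exact Nat.eq_of_mul_eq_mul_right (Nat.pos_of_ne_zero i0) this
  have hp : IsPGroup 3 (J.map π) := IsPGroup.of_card (n := 2) c9
  have h3 : ¬ 3 ∣ (J.map π).index := by
    rw [hi]
    rintro ⟨k, hk⟩
    exact h81 ⟨k, by rw [← c1, hk]; ring⟩
  have := cb1 (hp.toSylow h3) (s := π r) c9 (by rintro _ ⟨a, ha, rfl⟩; rw [← map_pow, exp a ha, map_one])
    ⟨⟨by
      rintro ⟨_, a, ha, rfl⟩ ⟨_, c, hc, rfl⟩
      exact Subtype.ext (by simp only [coe_mul, ← map_mul, comm a ha c hc])⟩⟩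
    (by
      rintro _ ⟨a, ha, rfl⟩
      rw [eq_inv_iff_mul_eq_one, ← map_inv, ← map_mul, ← map_mul, ← map_mul]
      exact (QuotientGroup.eq_one_iff _).2 (inv a ha))
    (by
      intro g hg
      obtain ⟨g, rfl⟩ := QuotientGroup.mk'_surjective (zpowers b) g
      have : g ∈ normalizer (J : Set X) := mem_normalizer_fintype fun a ha => by
        have := (mem_normalizer_iff.1 hg (π a)).1 ⟨a, ha, rfl⟩
        have h' : g * a * g⁻¹ ∈ (J.map π).comap π := by
          rw [mem_comap, map_mul, map_mul, map_inv]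
          exact this
        rwa [cm] at h'
      rcases hN g this with h | h
      · exact Or.inl ⟨g, h, rfl⟩
      · exact Or.inr ⟨_, h, by simp [hπ]⟩)
    (Invol.pPrimeCore_quotient_central hO _ hZ (IsPGroup.of_card (n := 1) cZ))
  rw [← cm]
  exact Normal.comap this _

/-- `C(b) ≤ N(J)` when `N(J) ∩ C(b) = J⟨r⟩` with `r` inverting `J/⟨b⟩`. -/
theorem cb {G : Type*} [Group G] [Finite G] {J : Subgroup G} {b r : G} (comm : IsMulCommutative J)
    (exp : ∀ a ∈ J, a ^ 3 = 1) (card : Nat.card J = 27) (hb : b ∈ J) (b1 : b ≠ 1)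
    (h81 : ¬ 81 ∣ Nat.card (centralizer ({b} : Set G))) (hO : pPrimeCore 3 (centralizer ({b} : Set G)) = ⊥)
    (rb : r * b = b * r) (inv : ∀ j ∈ J, r * j * r⁻¹ * j ∈ zpowers b)
    (hN : ∀ g ∈ normalizer (J : Set G), g * b = b * g → g ∈ J ∨ g * r⁻¹ ∈ J) :
    centralizer ({b} : Set G) ≤ normalizer (J : Set G) := by
  have cm : ∀ a ∈ J, ∀ c ∈ J, a * c = c * a := fun a ha c hc =>
    congrArg Subtype.val (comm.is_comm.comm (⟨a, ha⟩ : J) ⟨c, hc⟩)
  have JC : J ≤ centralizer ({b} : Set G) := fun a ha => mem_centralizer_singleton_iff.2 (cm a ha b hb)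
  refine (normal_subgroupOf_iff_le_normalizer JC).1 ?_
  refine cb0 (b := ⟨b, JC hb⟩) (r := ⟨r, mem_centralizer_singleton_iff.2 rb⟩)
    (fun a ha c hc => Subtype.ext (cm _ ha _ hc)) (fun a ha => Subtype.ext (exp _ ha))
    (by rw [Nat.card_congr (subgroupOfEquivOfLe JC).toEquiv, card]) hb (fun h => b1 (congrArg Subtype.val h))
    (fun g => Subtype.ext (mem_centralizer_singleton_iff.1 g.2)) h81 hO (fun j hj => ?_) fun g hg => ?_
  · obtain ⟨k, hk⟩ := inv j hj
    exact ⟨k, Subtype.ext (by simpa using hk)⟩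
  · exact hN g (mem_normalizer_fintype fun a ha => (mem_normalizer_iff.1 hg ⟨a, JC ha⟩).1 ha)
      (mem_centralizer_singleton_iff.1 g.2)

end Cfsg.Agent.A9R
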