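import Cfsg.Agent.S0659

/-! 3-local recognition of `Alt(9)`: the centralizer of a 3-central element lies in `N(J)` (`cz`; helper4 for helper9). -/

set_option autoImplicit false

namespace Cfsg.Agent.A9R

open Subgroup

theorem cz_mul {G : Type*} [Group G] {A B : Subgroup G} (h : A ≤ B) : Nat.card A * A.relIndex B = Nat.card B := by
  rw [← Nat.card_congr (subgroupOfEquivOfLe h).toEquiv]; exact card_mul_index _

/-- `J` is the only abelian subgroup of order at least 27 of `T`. -/
theorem cz_uniq {G : Type*} [Group G] [Finite G] {J T Z A : Subgroup G} (comm : IsMulCommutative J) (card : Nat.card J = 27)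
    (JT : J ≤ T) (h81 : Nat.card T = 81) (cZ : Nat.card Z = 3) (hZ : ∀ j ∈ J, (∀ t ∈ T, t * j = j * t) → j ∈ Z)
    (AT : A ≤ T) (ab : ∀ a ∈ A, ∀ b ∈ A, a * b = b * a) (hA : 27 ≤ Nat.card A) : A = J := by
  by_cases le : A ≤ J
  · exact eq_of_le_of_card_ge le (card ▸ hA)
  exfalso
  have e : A ⊔ J = T := by
    refine eq_of_le_of_card_ge (sup_le AT JT) ?_
    have d1 := card_dvd_of_le (sup_le AT JT)
    have d2 := card_dvd_of_le (le_sup_right : J ≤ A ⊔ J)
    have n : Nat.card ↥(A ⊔ J) ≠ 27 := fun e =>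
      le (le_sup_left.trans (eq_of_le_of_card_ge (le_sup_right : J ≤ A ⊔ J) (by rw [e, card])).ge)
    rw [h81] at d1 ⊢
    rw [card] at d2
    have := Nat.le_of_dvd (by decide) d1
    obtain ⟨k, hk⟩ := d2
    rw [hk] at d1 n this ⊢
    have : k ≤ 3 := by omega
    interval_cases k <;> simp_all
  have l : J ⊓ A ≤ Z := fun j hj => hZ j hj.1 fun t ht => by
    have : A ⊔ J ≤ centralizer {j} := sup_le (fun a ha => mem_centralizer_singleton_iff.2 (ab a ha j hj.2))
      fun a ha => mem_centralizer_singleton_iff.2 (congrArg Subtype.val (comm.1.1 ⟨a, ha⟩ ⟨j, hj.1⟩))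
    exact mem_centralizer_singleton_iff.1 (this (e.ge ht))
  have c1 := card_le_of_le l
  have c2 := cz_mul (inf_le_right : J ⊓ A ≤ A)
  have c3 := cz_mul JT
  have c4 : J.relIndex A ≤ J.relIndex T := relIndex_le_of_le_right AT index_ne_zero_of_finite
  rw [inf_relIndex_right] at c2
  rw [card, h81] at c3
  have : J.relIndex T = 3 := by omega
  nlinarith

theorem cz_top {X : Type*} [Group X] [Finite X] {J Z : Subgroup X} (comm : IsMulCommutative J) (card : Nat.card J = 27)
    (hO : Cfsg.pPrimeCore 3 X = ⊥) (h81 : Nat.card (normalizer (J : Set X)) = 81) (cZ : Nat.card Z = 3)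
    (hZ : ∀ j ∈ J, (∀ t ∈ normalizer (J : Set X), t * j = j * t) → j ∈ Z) : normalizer (J : Set X) = ⊤ := by
  have : Fact (Nat.Prime 3) := ⟨Nat.prime_three⟩
  have U := fun A : Subgroup X => cz_uniq (A := A) comm card le_normalizer h81 cZ hZ
  have abJ : ∀ a ∈ J, ∀ b ∈ J, a * b = b * a := fun a ha b hb => congrArg Subtype.val (comm.1.1 ⟨a, ha⟩ ⟨b, hb⟩)
  obtain ⟨P, hP⟩ := (IsPGroup.of_card (p := 3) (n := 4) h81).exists_le_sylow
  have NN : normalizer ((normalizer (J : Set X) : Subgroup X) : Set X) ≤ normalizer (J : Set X) := fun g hg => by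
    have := U (J.map (MulAut.conj g).toMonoidHom) (by
        rintro _ ⟨j, hj, rfl⟩; exact (mem_normalizer_iff.1 hg j).1 (le_normalizer hj))
      (by rintro _ ⟨a, ha, rfl⟩ _ ⟨b, hb, rfl⟩; rw [← map_mul, ← map_mul, abJ a ha b hb])
      (by rw [card_map_of_injective (MulAut.conj g).injective, card])
    exact mem_normalizer_fintype fun j hj => this.le ⟨j, hj, rfl⟩
  have eP : normalizer (J : Set X) = P := by
    have := P.isPGroup'.isNilpotent
    have t := normalizerCondition_iff_only_full_group_self_normalizing.1 (Group.normalizerCondition_of_isNilpotent (G := P))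
      ((normalizer (J : Set X)).subgroupOf P) (by
        rw [← subgroupOf_normalizer_eq hP]
        exact le_antisymm (comap_mono NN) (comap_mono le_normalizer))
    exact le_antisymm hP (subgroupOf_eq_top.1 t)
  have JP : J ≤ P := eP ▸ le_normalizer
  have cJ : Nat.card (J.subgroupOf P) = 27 := (Nat.card_congr (subgroupOfEquivOfLe JP).toEquiv).trans card
  have aJ : IsMulCommutative (J.subgroupOf P) := ⟨⟨fun a b => Subtype.ext (Subtype.ext (abJ _ a.2 _ b.2))⟩⟩
  have V : ∀ B : Subgroup P, IsMulCommutative B → 27 ≤ Nat.card B → B = J.subgroupOf P := fun B hB c => by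
    rw [← U (B.map (P : Subgroup X).subtype) ((map_subtype_le B).trans eP.ge)
      (by rintro _ ⟨a, ha, rfl⟩ _ ⟨b, hb, rfl⟩; exact congrArg (fun x : B => x.1.1) (hB.1.1 ⟨a, ha⟩ ⟨b, hb⟩))
      (by rwa [card_map_of_injective (Subgroup.subtype_injective _)])]
    exact (comap_map_eq_self_of_injective (Subgroup.subtype_injective _) B).symm
  have eJ : Cfsg.thompsonSubgroupAOf (P : Subgroup X) = J := by
    have : Cfsg.maxAbelianSubgroups P = {J.subgroupOf P} := by
      ext B
      refine ⟨fun h => V B h.1 (cJ ▸ h.2 _ aJ), ?_⟩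
      rintro rfl
      exact ⟨aJ, fun B hB => by_contra fun n => n (V B hB (by omega) ▸ le_rfl)⟩
    rw [Cfsg.thompsonSubgroupAOf, Cfsg.thompsonSubgroupA, this, sSup_singleton, map_subgroupOf_eq_of_le JP]
  have eZ : Cfsg.centerThompsonAOf (P : Subgroup X) = J := by
    rw [Cfsg.centerThompsonAOf, eJ]
    exact inf_eq_left.2 fun a ha b hb => abJ b hb a ha
  obtain ⟨Q, N, hN, c⟩ := S0659.result (p := 3) (by decide) P (by
    rw [eZ]
    obtain ⟨Q⟩ := (inferInstance : Nonempty (Sylow 3 (normalizer (J : Set X))))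
    refine ⟨Q, ⊥, inferInstance, ?_⟩
    rw [(Q.is_maximal' ((IsPGroup.of_card (p := 3) (n := 4) h81).to_subgroup ⊤) le_top).symm]
    exact isComplement'_bot_top)
  have nb : N = ⊥ := eq_bot_iff.2 (hO ▸ le_sSup ⟨hN, by
    rw [← c.index_eq_card]
    exact (Nat.prime_three.coprime_iff_not_dvd.2 Q.not_dvd_index).symm⟩)
  subst nb
  have q := isComplement'_bot_left.1 c
  rw [eP]
  exact eq_top_of_card_eq _ (by rw [P.card_eq_multiplicity, ← Q.card_eq_multiplicity, q, card_top])

theorem cz {G : Type*} [Group G] [Finite G] {J : Subgroup G} {z : G} (comm : IsMulCommutative J) (card : Nat.card J = 27)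
    (hz : z ∈ J) (o : orderOf z = 3) (hO : Cfsg.pPrimeCore 3 (centralizer ({z} : Set G)) = ⊥)
    (h81 : Nat.card ↥(normalizer (J : Set G) ⊓ centralizer {z}) = 81)
    (hZ : ∀ j ∈ J, (∀ t ∈ normalizer (J : Set G) ⊓ centralizer {z}, t * j = j * t) → j ∈ zpowers z) :
    centralizer {z} ≤ normalizer (J : Set G) := by
  have JC : J ≤ centralizer {z} := fun a ha =>
    mem_centralizer_singleton_iff.2 (congrArg Subtype.val (comm.1.1 ⟨a, ha⟩ ⟨z, hz⟩))
  have zC : zpowers z ≤ centralizer {z} := zpowers_le.2 (JC hz)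
  have := cz_top (J := J.subgroupOf (centralizer {z})) (Z := (zpowers z).subgroupOf (centralizer {z}))
    ⟨⟨fun a b => Subtype.ext (Subtype.ext (congrArg (fun x : J => x.1) (comm.1.1 ⟨_, a.2⟩ ⟨_, b.2⟩)))⟩⟩
    ((Nat.card_congr (subgroupOfEquivOfLe JC).toEquiv).trans card) hO
    (by rw [← subgroupOf_normalizer_eq JC, ← inf_subgroupOf_right, ← h81]
        exact Nat.card_congr (subgroupOfEquivOfLe inf_le_right).toEquiv)
    ((Nat.card_congr (subgroupOfEquivOfLe zC).toEquiv).trans ((Nat.card_zpowers z).trans o))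
    fun j hj h => hZ j hj fun t ht => congrArg Subtype.val (h ⟨t, ht.2⟩ (by rw [← subgroupOf_normalizer_eq JC]; exact ht.1))
  rw [← subgroupOf_normalizer_eq JC] at this
  exact subgroupOf_eq_top.1 this

end Cfsg.Agent.A9R
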