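import Cfsg.Agent.A9R.CZ

/-! S3339, piece FU: `N(J)` contains a Sylow 3-subgroup and controls fusion in `J`. (helper19) -/

set_option autoImplicit false

namespace Cfsg.Agent.A9R

open Subgroup

variable {G : Type*} [Group G] [Finite G] {J T Z : Subgroup G}

theorem fu_syl (comm : IsMulCommutative J) (card : Nat.card J = 27) (JT : J ≤ T) (TN : T ≤ normalizer (J : Set G))
    (h81 : Nat.card T = 81) (h243 : ¬ 243 ∣ Nat.card (normalizer (J : Set G))) (cZ : Nat.card Z = 3)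
    (hZ : ∀ j ∈ J, (∀ t ∈ T, t * j = j * t) → j ∈ Z) : ∃ P : Sylow 3 G, (P : Subgroup G) = T := by
  have : Fact (Nat.Prime 3) := ⟨Nat.prime_three⟩
  have abJ : ∀ a ∈ J, ∀ b ∈ J, a * b = b * a := fun a ha b hb => congrArg Subtype.val (comm.1.1 ⟨a, ha⟩ ⟨b, hb⟩)
  obtain ⟨P, hP⟩ := (IsPGroup.of_card (p := 3) (n := 4) h81).exists_le_sylow
  have NN : normalizer (T : Set G) ≤ normalizer (J : Set G) := fun g hg => by
    have := cz_uniq (A := J.map (MulAut.conj g).toMonoidHom) comm card JT h81 cZ hZ (by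
        rintro _ ⟨j, hj, rfl⟩; exact (mem_normalizer_iff.1 hg j).1 (JT hj))
      (by rintro _ ⟨a, ha, rfl⟩ _ ⟨b, hb, rfl⟩; rw [← map_mul, ← map_mul, abJ a ha b hb])
      (by rw [card_map_of_injective (MulAut.conj g).injective, card])
    exact mem_normalizer_fintype fun j hj => this.le ⟨j, hj, rfl⟩
  have e : normalizer (T : Set G) ⊓ P = T := by
    have le : T ≤ normalizer (T : Set G) ⊓ P := le_inf le_normalizer hP
    obtain ⟨n, hn⟩ := IsPGroup.iff_card.1 (P.isPGroup'.to_le (inf_le_right : normalizer (T : Set G) ⊓ P ≤ P))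
    have d := card_dvd_of_le (inf_le_left.trans NN : normalizer (T : Set G) ⊓ P ≤ _)
    refine (eq_of_le_of_card_ge le ?_).symm
    rw [hn] at d ⊢
    rw [h81]
    have : n ≤ 4 := by
      by_contra c
      exact h243 ((pow_dvd_pow 3 (show 5 ≤ n by omega)).trans d)
    exact Nat.pow_le_pow_right (by decide) this
  have := P.isPGroup'.isNilpotent
  have t := normalizerCondition_iff_only_full_group_self_normalizing.1 (Group.normalizerCondition_of_isNilpotent (G := P))
    (T.subgroupOf P) (by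
      rw [← subgroupOf_normalizer_eq hP, ← inf_subgroupOf_right, e])
  exact ⟨P, le_antisymm (subgroupOf_eq_top.1 t) hP⟩

theorem fu_conj {C A B : Subgroup G} (hA : IsPGroup 3 A) (hB : IsPGroup 3 B) (AC : A ≤ C) (BC : B ≤ C) :
    ∃ c ∈ C, IsPGroup 3 ↥(A ⊔ B.map (MulAut.conj c).toMonoidHom) := by
  have : Fact (Nat.Prime 3) := ⟨Nat.prime_three⟩
  obtain ⟨P, hP⟩ := (hA.comap_subtype (K := C)).exists_le_sylow
  obtain ⟨Q, hQ⟩ := (hB.comap_subtype (K := C)).exists_le_sylow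
  obtain ⟨c, rfl⟩ := MulAction.exists_smul_eq C Q P
  refine ⟨c, c.2, ((c • Q).isPGroup'.map C.subtype).to_le (sup_le (fun a ha => ⟨⟨a, AC ha⟩, hP ha, rfl⟩) ?_)⟩
  rintro _ ⟨b, hb, rfl⟩
  exact ⟨c * ⟨b, BC hb⟩ * c⁻¹, smul_mem_pointwise_smul (⟨b, BC hb⟩ : C) (MulAut.conj c) _ (hQ hb), rfl⟩

theorem fu (comm : IsMulCommutative J) (card : Nat.card J = 27) (JT : J ≤ T) (TN : T ≤ normalizer (J : Set G))
    (h81 : Nat.card T = 81) (h243 : ¬ 243 ∣ Nat.card (normalizer (J : Set G))) (cZ : Nat.card Z = 3)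
    (hZ : ∀ j ∈ J, (∀ t ∈ T, t * j = j * t) → j ∈ Z) : ¬ 243 ∣ Nat.card G ∧
      ∀ j ∈ J, ∀ g, g * j * g⁻¹ ∈ J → ∃ h ∈ normalizer (J : Set G), h * j * h⁻¹ = g * j * g⁻¹ := by
  have : Fact (Nat.Prime 3) := ⟨Nat.prime_three⟩
  obtain ⟨P, hP⟩ := fu_syl comm card JT TN h81 h243 cZ hZ
  have abJ : ∀ a ∈ J, ∀ b ∈ J, a * b = b * a := fun a ha b hb => congrArg Subtype.val (comm.1.1 ⟨a, ha⟩ ⟨b, hb⟩)
  have U : ∀ g : G, J.map (MulAut.conj g).toMonoidHom ≤ T → g ∈ normalizer (J : Set G) := fun g hg =>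
    mem_normalizer_fintype fun j hj => (cz_uniq comm card JT h81 cZ hZ hg
      (by rintro _ ⟨a, ha, rfl⟩ _ ⟨b, hb, rfl⟩; rw [← map_mul, ← map_mul, abJ a ha b hb])
      (by rw [card_map_of_injective (MulAut.conj g).injective, card])).le ⟨j, hj, rfl⟩
  refine ⟨fun d => P.not_dvd_index ?_, fun j hj g hg => ?_⟩
  · have := (P : Subgroup G).card_mul_index
    rw [hP, h81] at this
    rw [hP]
    omega
  have pJ : IsPGroup 3 J := IsPGroup.of_card (n := 3) card
  obtain ⟨c, hc, h⟩ := fu_conj (C := centralizer {g * j * g⁻¹}) pJ (pJ.map (MulAut.conj g).toMonoidHom)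
    (fun a ha => mem_centralizer_singleton_iff.2 (abJ a ha _ hg)) (by
      rintro _ ⟨a, ha, rfl⟩
      refine mem_centralizer_singleton_iff.2 ?_
      show g * a * g⁻¹ * _ = _ * (g * a * g⁻¹)
      rw [conj_mul, conj_mul, abJ a ha j hj])
  obtain ⟨Q, hQ⟩ := h.exists_le_sylow
  obtain ⟨k, rfl⟩ := MulAction.exists_smul_eq G Q P
  have m : ∀ x ∈ (Q : Subgroup G), k * x * k⁻¹ ∈ T := fun x hx =>
    hP ▸ smul_mem_pointwise_smul x (MulAut.conj k) _ hx
  have h1 := U k (by rintro _ ⟨a, ha, rfl⟩; exact m a (hQ (mem_sup_left ha)))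
  have h2 := U (k * c * g) (by
    rintro _ ⟨a, ha, rfl⟩
    have := m _ (hQ (mem_sup_right ⟨_, ⟨a, ha, rfl⟩, rfl⟩))
    simpa [mul_assoc] using this)
  refine ⟨k⁻¹ * (k * c * g), mul_mem (inv_mem h1) h2, ?_⟩
  calc _ = c * (g * j * g⁻¹) * c⁻¹ := by group
    _ = _ := by rw [mem_centralizer_singleton_iff.1 hc, mul_inv_cancel_right]

/-- if 81 divides the order of an overgroup `M` of `J` then it divides the order of `N_M(J)` -/
theorem fu_81 (card : Nat.card J = 27) {M : Subgroup G} (JM : J ≤ M)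
    (d : 81 ∣ Nat.card M) : 81 ∣ Nat.card ↥(normalizer (J : Set G) ⊓ M) := by
  have : Fact (Nat.Prime 3) := ⟨Nat.prime_three⟩
  have pJ : IsPGroup 3 J := IsPGroup.of_card (n := 3) card
  obtain ⟨P, hP⟩ := (pJ.comap_subtype (K := M)).exists_le_sylow
  obtain ⟨n, hn⟩ := IsPGroup.iff_card.1 P.isPGroup'
  have c := (P : Subgroup M).card_mul_index
  have n4 : 4 ≤ n := by
    by_contra h
    have : 3 ^ n ∣ 27 := pow_dvd_pow 3 (show n ≤ 3 by omega)
    obtain ⟨k, hk⟩ := this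
    apply P.not_dvd_index
    rw [hn] at c
    have : 3 ^ n * (3 * k) ∣ 3 ^ n * (P : Subgroup M).index := by
      rw [c, mul_left_comm, ← hk]; exact d
    exact (Dvd.intro _ rfl).trans (Nat.dvd_of_mul_dvd_mul_left (by positivity) this)
  let R := (P : Subgroup M).map M.subtype
  have JR : J ≤ R := fun a ha => ⟨⟨a, JM ha⟩, hP ha, rfl⟩
  have cR : Nat.card R = 3 ^ n := by rw [card_map_of_injective M.subtype_injective, hn]
  have pR : IsPGroup 3 R := IsPGroup.of_card cR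
  have := pR.isNilpotent
  have lt : J < normalizer (J : Set G) ⊓ R := by
    refine lt_of_le_of_ne (le_inf le_normalizer JR) fun e => ?_
    have t := normalizerCondition_iff_only_full_group_self_normalizing.1 (Group.normalizerCondition_of_isNilpotent (G := R))
      (J.subgroupOf R) (by rw [← subgroupOf_normalizer_eq JR, ← inf_subgroupOf_right, ← e])
    have := card_le_of_le (subgroupOf_eq_top.1 t)
    rw [cR, card] at this
    have := Nat.pow_le_pow_right (show 0 < 3 by decide) n4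
    omega
  obtain ⟨m, hm⟩ := IsPGroup.iff_card.1 (pR.to_le (inf_le_right : normalizer (J : Set G) ⊓ R ≤ R))
  have m4 : 4 ≤ m := by
    by_contra h
    have h1 := Nat.pow_le_pow_right (show 0 < 3 by decide) (show m ≤ 3 by omega)
    exact lt.ne (eq_of_le_of_card_ge lt.le (by rw [hm, card]; exact h1))
  exact ((pow_dvd_pow 3 m4).trans hm.symm.dvd).trans
    (card_dvd_of_le (inf_le_inf_left _ (map_subtype_le _)))

end Cfsg.Agent.A9R
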