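import Cfsg.Agent.S8R.QD1
import Cfsg.Agent.BG.Base4

/-! The centralizer of the four-group does not normalize `⟨a⟩`. -/

set_option autoImplicit false
set_option synthInstance.maxSize 8192
set_option synthInstance.maxHeartbeats 200000

namespace Cfsg.Agent.A9R.K23

open Equiv Subgroup Cfsg.Agent.BG

def k3t : Perm (Fin 6) := swap 0 1 * swap 2 3
def k3v : Perm (Fin 6) := swap 0 2 * swap 1 3
def k3e : Perm (Fin 6) := swap 4 5
def k3el (i j k l : Fin 2) : Perm (Fin 6) := k3v ^ i.1 * swap 0 1 ^ j.1 * swap 2 3 ^ k.1 * k3e ^ l.1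
def k3L : List (Perm (Fin 6)) := [1, swap 1 2, swap 1 3, swap 2 4 * swap 3 5, swap 0 4 * swap 1 5]

theorem k3_list : ∀ π : Perm (Fin 6), π * k3t = k3t * π → ∃ i j k l : Fin 2, π = k3el i j k l :=
  S8R.qd_all.1 (by decide +kernel)

theorem k3_sq : ∀ i j k l : Fin 2, (k3el i j k l ^ 2 = 1 ∨ k3el i j k l ^ 2 = k3t) ∧ k3el i j k l ^ (2 ^ 2) = 1 ∧
    (k3el i j k l * k3v = k3v * k3el i j k l → k3el i j k l ^ 2 = 1) := by decide +kernel

/-- conjugate to `t` or `e` -/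
def k3G (x : Perm (Fin 6)) : Prop := ∃ c ∈ k3L, c * k3t * c⁻¹ = x ∨ c * k3e * c⁻¹ = x
/-- conjugate to `t e` -/
def k3B (x : Perm (Fin 6)) : Prop := ∃ c ∈ k3L, c * (k3t * k3e) * c⁻¹ = x

theorem k3_e : ∀ i j k l : Fin 2, k3el i j k l ^ 2 = 1 → k3el i j k l ≠ 1 → k3el i j k l * k3t ≠ 1 →
    (¬ ∃ c ∈ k3L, c * (k3t * k3e) * c⁻¹ = k3el i j k l) →
    (¬ ∃ c ∈ k3L, c * k3t * c⁻¹ = k3el i j k l * k3t ∨ c * k3e * c⁻¹ = k3el i j k l * k3t) → k3el i j k l = k3e := by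
  decide +kernel

theorem k3_v : ∀ i j k l : Fin 2, k3el i j k l ^ 2 = 1 → k3el i j k l * k3e ≠ 1 → k3el i j k l * k3t ≠ 1 →
    (¬ ∃ c ∈ k3L, c * k3t * c⁻¹ = k3el i j k l * k3e ∨ c * k3e * c⁻¹ = k3el i j k l * k3e) →
    k3el i j k l = k3v ∨ k3el i j k l = k3v * k3t := by
  decide +kernel

theorem k3_ce : ∀ i j k l : Fin 2, k3el i j k l * k3e = k3e * k3el i j k l := by decide +kernel

theorem ks3 {G : Type*} [Group G] [Finite G] {a : G} (o : orderOf a = 3) (σ : Perm (Fin 6) →* G)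
    (inj : Function.Injective σ)
    (hσ : ∀ π, σ π * a * (σ π)⁻¹ = if Perm.sign π = 1 then a else a⁻¹)
    (hN : ∀ g ∈ normalizer (zpowers a : Set G), ∃ π, ∃ u ∈ zpowers a, g = u * σ π)
    (hte : IsConj (σ (swap 0 1 * swap 2 3)) (σ (swap 4 5)))
    (htr : ¬ IsConj (σ (swap 0 1 * swap 2 3)) (σ (swap 0 1 * swap 2 3 * swap 4 5))) :
    ∃ g, g * σ (swap 0 1 * swap 2 3) = σ (swap 0 1 * swap 2 3) * g ∧
      g * σ (swap 0 2 * swap 1 3) = σ (swap 0 2 * swap 1 3) * g ∧ g ∉ normalizer (zpowers a : Set G) := by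
  have : Fact (Nat.Prime 2) := ⟨Nat.prime_two⟩
  change IsConj (σ k3t) (σ k3e) at hte
  change ¬ IsConj (σ k3t) (σ (k3t * k3e)) at htr
  change ∃ g, g * σ k3t = σ k3t * g ∧ g * σ k3v = σ k3v * g ∧ _
  by_contra hc
  have hV : ∀ g, g * σ k3t = σ k3t * g → g * σ k3v = σ k3v * g → g ∈ normalizer (zpowers a : Set G) := fun g h1 h2 => by
    by_contra h3; exact hc ⟨g, h1, h2, h3⟩
  have a3 : a ^ 3 = 1 := o ▸ pow_orderOf_eq_one a
  have cm : ∀ π, Perm.sign π = 1 → ∀ u ∈ zpowers a, u * σ π = σ π * u := fun π hπ u hu => by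
    obtain ⟨k, rfl⟩ := hu
    have := hσ π
    rw [if_pos hπ] at this
    exact ((show Commute (σ π) a from mul_inv_eq_iff_eq_mul.1 this).zpow_right k).symm
  have ct := cm k3t (by decide +kernel)
  have cv := cm k3v (by decide +kernel)
  have nσ : ∀ π, ∀ u ∈ zpowers a, σ π * u * (σ π)⁻¹ ∈ zpowers a := fun π u hu => by
    obtain ⟨k, rfl⟩ := hu
    show σ π * a ^ k * (σ π)⁻¹ ∈ zpowers a
    rw [← conj_zpow, hσ]
    split_ifs
    exacts [zpow_mem (mem_zpowers a) k, zpow_mem (inv_mem (mem_zpowers a)) k]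
  have u3 : ∀ u ∈ zpowers a, u ^ 3 = 1 := fun u hu => by
    obtain ⟨k, rfl⟩ := hu
    show (a ^ k) ^ 3 = 1
    rw [← zpow_natCast, ← zpow_mul, mul_comm, zpow_mul, zpow_natCast, a3, one_zpow]
  have cc : ∀ {u π τ}, u * σ τ = σ τ * u → u * σ π * σ τ = σ τ * (u * σ π) → π * τ = τ * π := fun {u π τ} h1 h2 => inj (by
    rw [map_mul, map_mul]
    rw [← mul_assoc, ← h1, mul_assoc, mul_assoc] at h2
    exact mul_left_cancel h2)
  set T : Subgroup G := (C1[k3t]).map σ with hT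
  have mT : ∀ x, x ∈ T ↔ ∃ π, π * k3t = k3t * π ∧ σ π = x := fun x => by simp only [hT, mem_map, mem_cent1]
  have pT : IsPGroup 2 T := by
    rintro ⟨x, hx⟩
    obtain ⟨π, h1, rfl⟩ := (mT x).1 hx
    obtain ⟨i, j, k, l, rfl⟩ := k3_list π h1
    exact ⟨2, Subtype.ext (by show σ _ ^ (2 ^ 2) = 1; rw [← map_pow, (k3_sq i j k l).2.1, map_one])⟩
  have cj1 : ∀ c x : Perm (Fin 6), IsConj (σ x) (σ (c * x * c⁻¹)) := fun c x => isConj_iff.2 ⟨σ c, by simp⟩
  have good : ∀ x, (∃ c ∈ k3L, c * k3t * c⁻¹ = x ∨ c * k3e * c⁻¹ = x) → IsConj (σ k3t) (σ x) := by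
    rintro x ⟨c, -, rfl | rfl⟩
    exacts [cj1 c _, hte.trans (cj1 c _)]
  have bad : ∀ x, (∃ c ∈ k3L, c * (k3t * k3e) * c⁻¹ = x) → ¬ IsConj (σ k3t) (σ x) := by
    rintro x ⟨c, -, rfl⟩ h
    exact htr (h.trans (cj1 c _).symm)
  have key : ∀ h : G, (∀ x ∈ T, h * x * h⁻¹ ∈ T) → h * σ k3t * h⁻¹ = σ k3t ∧ h ∈ normalizer (zpowers a : Set G) := by
    intro h hh
    have im : ∀ π, π * k3t = k3t * π → ∃ i j k l, h * σ π * h⁻¹ = σ (k3el i j k l) := fun π hπ => by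
      obtain ⟨π', h1, h2⟩ := (mT _).1 (hh _ ((mT _).2 ⟨π, hπ, rfl⟩))
      obtain ⟨i, j, k, l, rfl⟩ := k3_list π' h1
      exact ⟨i, j, k, l, h2.symm⟩
    have ne : ∀ {x y}, h * σ x * h⁻¹ = σ y → x ≠ 1 → y ≠ 1 := fun {x y} e hx hy => hx (inj (by
      rw [hy, map_one] at e; rw [map_one]; exact conj_eq_one_iff.1 e))
    have ml : ∀ {x y x' y'}, h * σ x * h⁻¹ = σ y → h * σ x' * h⁻¹ = σ y' → h * σ (x * x') * h⁻¹ = σ (y * y') :=
      fun {x y x' y'} e e' => by rw [map_mul, map_mul, ← e, ← e', conj_mul]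
    have s2 : ∀ {x y}, h * σ x * h⁻¹ = σ y → x * x = 1 → y ^ 2 = 1 := fun {x y} e hx => inj (by
      rw [pow_two, ← ml e e, hx, map_one]; simp)
    have cj2 : ∀ {x y}, h * σ x * h⁻¹ = σ y → IsConj (σ x) (σ y) := fun {x y} e => isConj_iff.2 ⟨h, e⟩
    have et : h * σ k3t * h⁻¹ = σ k3t := by
      obtain ⟨i, j, k, l, e⟩ := im (k3v * swap 0 1) (by decide +kernel)
      have e2 := ml e e
      rw [show k3v * swap 0 1 * (k3v * swap 0 1) = k3t by decide +kernel, ← pow_two] at e2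
      rcases (k3_sq i j k l).1 with e3 | e3
      · exact absurd e3 (ne e2 (by decide +kernel))
      · rwa [e3] at e2
    have ee : h * σ k3e * h⁻¹ = σ k3e := by
      obtain ⟨i, j, k, l, e⟩ := im k3e (by decide +kernel)
      rwa [k3_e i j k l (s2 e (by decide +kernel)) (ne e (by decide +kernel)) (ne (ml e et) (by decide +kernel))
        (fun hb => bad _ hb (hte.trans (cj2 e)))
        (fun hg => bad (k3e * k3t) (by decide +kernel) ((good _ hg).trans (cj2 (ml e et)).symm))] at e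
    obtain ⟨i, j, k, l, e⟩ := im k3v (by decide +kernel)
    have ev := k3_v i j k l (s2 e (by decide +kernel)) (ne (ml e ee) (by decide +kernel)) (ne (ml e et) (by decide +kernel))
      (fun hg => bad (k3v * k3e) (by decide +kernel) ((good _ hg).trans (cj2 (ml e ee)).symm))
    have ev' : ∃ x, Perm.sign x = 1 ∧ h * σ x * h⁻¹ = σ k3v := by
      rcases ev with ev | ev <;> rw [ev] at e
      · exact ⟨k3v, by decide +kernel, e⟩
      · have := ml e et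
        rw [show k3v * k3t * k3t = k3v by decide +kernel] at this
        exact ⟨_, by decide +kernel, this⟩
    obtain ⟨x, sx, ex⟩ := ev'
    refine ⟨et, ?_⟩
    have hz : ∀ y, Perm.sign y = 1 → h * a * h⁻¹ * (h * σ y * h⁻¹) = h * σ y * h⁻¹ * (h * a * h⁻¹) := fun y hy => by
      rw [conj_mul, conj_mul, cm y hy a (mem_zpowers a)]
    have z1 := hz k3t (by decide +kernel)
    have z2 := hz x sx
    rw [et] at z1
    rw [ex] at z2
    obtain ⟨π, u, hu, e1⟩ := hN _ (hV _ z1 z2)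
    have p1 : π * k3t = k3t * π := cc (ct u hu) (e1 ▸ z1)
    have p2 : π * k3v = k3v * π := cc (cv u hu) (e1 ▸ z2)
    obtain ⟨i, j, k, l, rfl⟩ := k3_list π p1
    have p3 := (k3_sq i j k l).2.2 p2
    have b3 : (h * a * h⁻¹) ^ 3 = 1 := by rw [conj_pow, a3]; simp
    have b2 : (h * a * h⁻¹) ^ 2 ∈ zpowers a := by
      have : (h * a * h⁻¹) ^ 2 = u * (σ (k3el i j k l) * u * (σ (k3el i j k l))⁻¹) * σ (k3el i j k l ^ 2) := by
        rw [e1, map_pow, pow_two, pow_two]; group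
      rw [this, p3, map_one, mul_one]
      exact mul_mem hu (nσ _ u hu)
    have b1 : h * a * h⁻¹ ∈ zpowers a := by
      have : h * a * h⁻¹ = ((h * a * h⁻¹) ^ 2) ^ 2 := by
        rw [← pow_mul, show 2 * 2 = 3 + 1 from rfl, pow_succ, b3, one_mul]
      rw [this]; exact pow_mem b2 2
    refine mem_normalizer_fintype fun n hn => ?_
    obtain ⟨m, rfl⟩ := hn
    have := zpow_mem b1 m
    rwa [conj_zpow] at this
  have TC : T ≤ C1[σ k3t] := fun x hx => by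
    obtain ⟨π, h1, rfl⟩ := (mT x).1 hx
    rw [mem_cent1, ← map_mul, h1, map_mul]
  have syl : SylowIn 2 T C1[σ k3t] := max_pgroup_Sylow TC pT fun Q hQ hle _ => by
    by_contra hne
    obtain ⟨g, ⟨gQ, gN⟩, gT⟩ := SetLike.exists_of_lt
      (nilpotent_proper_norm (pgroup_nil hQ) (lt_of_le_of_ne hle (Ne.symm hne)))
    obtain ⟨e1, e2⟩ := key g fun x hx => (mem_normalizer_iff.1 gN x).1 hx
    obtain ⟨π, u, hu, rfl⟩ := hN g e2
    have p1 : σ π ∈ T := (mT _).2 ⟨π, cc (ct u hu) (mul_inv_eq_iff_eq_mul.1 e1), rfl⟩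
    have gQ' : u * σ π ∈ Q := gQ
    have uQ : u ∈ Q := by simpa using Q.mul_mem gQ' (Q.inv_mem (hle p1))
    obtain ⟨n, hn⟩ := hQ ⟨u, uQ⟩
    have hn' : u ^ (2 ^ n) = 1 := congrArg Subtype.val hn
    have : u = 1 := orderOf_eq_one_iff.1 (Nat.eq_one_of_dvd_coprimes
      (Nat.Coprime.pow_left n (by norm_num : Nat.Coprime 2 3)) (orderOf_dvd_of_pow_eq_one hn') (orderOf_dvd_of_pow_eq_one (u3 u hu)))
    exact gT (by rw [this, one_mul]; exact p1)
  obtain ⟨g, hg⟩ := isConj_iff.1 hte.symm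
  have le2 : cj g T ≤ C1[σ k3t] := by
    rw [← hg, C1_conj]
    refine map_mono fun x hx => ?_
    obtain ⟨π, h1, rfl⟩ := (mT x).1 hx
    obtain ⟨i, j, k, l, rfl⟩ := k3_list π h1
    rw [mem_cent1, ← map_mul, ← map_mul]
    exact congrArg σ (k3_ce i j k l)
  obtain ⟨c, hc1, hc2⟩ := Sylow_Jsub syl le2 (pT.cj g)
  have := (key (c * g) fun x hx => hc2 ⟨g * x * g⁻¹, ⟨x, hx, rfl⟩, by simp [mul_assoc]⟩).1
  have e3 : c * g * σ k3e * (c * g)⁻¹ = σ k3t := by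
    calc _ = c * (g * σ k3e * g⁻¹) * c⁻¹ := by group
      _ = σ k3t := by rw [hg, mem_cent1.1 hc1]; group
  exact absurd (inj (mul_left_cancel (mul_right_cancel (this.trans e3.symm)))) (by decide +kernel)

end Cfsg.Agent.A9R.K23
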