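import Cfsg.Agent.Hig.S4T

/-! The model of `3³ : S₄` inside a finite group without strong closure (lead; adapted from helper13's `Hig/S4M, S4C, S4T`). -/

set_option autoImplicit false
set_option linter.unusedSectionVars false

namespace Cfsg.Agent.Hig

open Finset Subgroup Cfsg.Agent.Char Cfsg.Agent.Block Cfsg.Agent.Small
open scoped ComplexConjugate

variable {G : Type*} [Group G] [Finite G]

structure Sn (el : Q4 → G) : Prop where
  mul : ∀ p q, el (qm p q) = el p * el q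
  inj : Function.Injective el
  cent : ∀ k ≠ 0, ∀ g, g * el (k, 0) = el (k, 0) * g → ∃ p, el p = g

theorem sn_key : ∀ (i : Fin 170) (j : Fin 81), let w : ℤ := (i.1 : ℤ) - 85; let m : ℤ := (j.1 : ℤ) - 40
    let e := m - 18 * w - 16; let n := -81 * (e * (2 * e + 27 * w + 24))
    (e + 8) % 27 = 0 → n % m = 0 → 0 < n / m → (n / m * (27 * w + 24)) % 4266 = 0 → i.1 = 119 ∧ j.1 = 39 := by
  decide +kernel

theorem sn_fin {r : ℤ} (h1 : 16099884 * (r + (942 - r)) = -4266 * (r * (942 - r))) : False := by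
  rcases (show r ≤ -1473 ∨ (-1472 ≤ r ∧ r ≤ 2414) ∨ 2415 ≤ r by omega) with x | ⟨x, y⟩ | x
  · linarith [mul_nonneg (show 0 ≤ -1473 - r by omega) (show 0 ≤ 2415 - r by omega)]
  · linarith [mul_nonneg (show 0 ≤ r + 1472 by omega) (show 0 ≤ 2414 - r by omega)]
  · linarith [mul_nonneg (show 0 ≤ r + 1473 by omega) (show 0 ≤ r - 2415 by omega)]

theorem sn_bd {N r s e f : ℤ} (h1 : N * (r + s) = -4266 * (r * s))
    (h2 : N * (2 * f - e) = -243 * (e * f)) (h3 : 1 + r ^ 2 + s ^ 2 ≤ N) (h4 : 1 + e ^ 2 + f ^ 2 ≤ N) :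
    0 < N ∧ r + s < 2133 ∧ -2133 < r + s ∧ 2 * f - e < 122 ∧ -122 < 2 * f - e := by
  have N0 : 0 < N := lt_of_lt_of_le (by positivity) h3
  exact ⟨N0, lt_of_mul_lt_mul_left (a := N) (by linarith [sq_nonneg (r + s)]) N0.le,
    lt_of_mul_lt_mul_left (a := N) (by linarith [sq_nonneg (r - s)]) N0.le,
    lt_of_mul_lt_mul_left (a := N) (by linarith [sq_nonneg (e + f)]) N0.le,
    lt_of_mul_lt_mul_left (a := N) (by linarith [sq_nonneg (e - f)]) N0.le⟩

set_option maxHeartbeats 2000000 in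
theorem sn_arith {N q r s e f : ℤ} (hq : 27 ∣ q - 6) (hr : 27 ∣ r - 12) (hs : 27 ∣ s - 12)
    (he : 2 * e = 2 - q - s) (hf : f = 2 - q + r) (h1 : N * (r + s) = -4266 * (r * s))
    (h2 : N * (2 * f - e) = -243 * (e * f)) (h3 : 1 + r ^ 2 + s ^ 2 ≤ N) (h4 : 1 + e ^ 2 + f ^ 2 ≤ N) : False := by
  obtain ⟨a, ha⟩ := hq
  obtain ⟨b, hb⟩ := hr
  obtain ⟨c, hc⟩ := hs
  obtain ⟨N0, u1, u2, v1, v2⟩ := sn_bd h1 h2 h3 h4
  clear h3 h4
  obtain ⟨i, hi⟩ : ∃ i : Fin 170, b + c = (i.1 : ℤ) - 85 := ⟨⟨(b + c + 85).toNat, by omega⟩, by simp only; omega⟩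
  obtain ⟨j, hj⟩ : ∃ j : Fin 81, e + 18 * (b + c) + 16 = (j.1 : ℤ) - 40 :=
    ⟨⟨(e + 18 * (b + c) + 56).toNat, by omega⟩, by simp only; omega⟩
  have ee : (j.1 : ℤ) - 40 - 18 * ((i.1 : ℤ) - 85) - 16 = e := by omega
  have m0 : (j.1 : ℤ) - 40 ≠ 0 := by omega
  have f1 : 2 * e + 27 * (b + c) + 24 = f := by omega
  have f2 : 3 * (e + 18 * (b + c) + 16) = 2 * f - e := by omega
  have f3 : 27 * (b + c) + 24 = r + s := by omega
  have f4 : (e + 8) % 27 = 0 := by omega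
  have nn : -81 * (e * (2 * e + 27 * ((i.1 : ℤ) - 85) + 24)) = N * ((j.1 : ℤ) - 40) := by
    rw [← hi, ← hj, f1]
    refine mul_left_cancel₀ three_ne_zero ?_
    rw [show 3 * (N * (e + 18 * (b + c) + 16)) = N * (3 * (e + 18 * (b + c) + 16)) by ring, f2, h2]; ring
  have k := sn_key i j
  simp only [ee, nn, Int.mul_ediv_cancel _ m0] at k
  obtain ⟨k1, k2⟩ := k f4 (Int.mul_emod_left _ _) N0 (by
    rw [← hi, f3, h1, show -4266 * (r * s) = 4266 * (-(r * s)) by ring]; exact Int.mul_emod_right _ _)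
  rw [k1, k2] at nn ee
  rw [k1] at hi
  have e1 : e = -629 := by rw [← ee]; norm_num
  have N1 : N = 16099884 := by rw [e1] at nn; push_cast at nn; linarith
  have s1 : s = 942 - r := by push_cast at hi; linarith
  rw [N1, s1] at h1
  exact sn_fin h1

namespace Sn

variable {el : Q4 → G} (h : Sn el)
include h

theorem one : el (0, 0) = 1 := by simpa [q4_misc.2.1] using h.mul (0, 0) (0, 0)

theorem pow (p : Q4) (n : ℕ) : el (qp p n) = el p ^ n := by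
  induction n with
  | zero => rw [pow_zero, qp, h.one]
  | succ n ih => rw [qp, h.mul, ih, pow_succ]

theorem conj_of {p q : Q4} (c : ∃ r, qm r p = qm q r) : IsConj (el p) (el q) :=
  let ⟨r, c⟩ := c
  isConj_iff.2 ⟨el r, by rw [← h.mul, c, h.mul, mul_inv_cancel_right]⟩

theorem card_cent {p : Q4} (m : ℕ) (hp : (qp p m).2 = 0 ∧ (qp p m).1 ≠ 0) :
    Nat.card (centralizer ({el p} : Set G)) = cn p := by
  rw [cn, ← Fintype.card_subtype, ← Nat.card_eq_fintype_card]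
  refine (Nat.card_eq_of_bijective (fun r : {r // qm r p = qm p r} => (⟨el r,
    mem_centralizer_singleton_iff.2 (by rw [← h.mul, r.2, h.mul])⟩ :
      centralizer ({el p} : Set G))) ⟨fun x y c => Subtype.ext (h.inj (congrArg Subtype.val c)),
        fun g => ?_⟩).symm
  have c : Commute g.1 (el p) := mem_centralizer_singleton_iff.1 g.2
  obtain ⟨r, hr⟩ := h.cent _ hp.2 g (by
    rw [← hp.1, Prod.mk.eta, h.pow]; exact c.pow_right m)
  exact ⟨⟨r, h.inj (by rw [h.mul, h.mul, hr, c.eq])⟩, Subtype.ext hr⟩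

theorem mem {k k' : K3} (hk : k ≠ 0) {g : G} (hg : g * el (k, 0) * g⁻¹ = el (k', 0)) :
    ∃ r, el r = g := by
  have k1 : ∀ x : K3, x ≠ 0 → (qp (x, 0) 1).2 = 0 ∧ (qp (x, 0) 1).1 ≠ 0 := by decide +kernel
  have hk' : k' ≠ 0 := fun c => hk (by
    rw [c, h.one, mul_inv_eq_one, mul_eq_left, ← h.one] at hg
    exact congrArg Prod.fst (h.inj hg))
  have := Invol.card_centralizer_of_isConj (isConj_iff.2 ⟨g, hg⟩)
  rw [h.card_cent 1 (k1 k hk), h.card_cent 1 (k1 k' hk'), cn_wt, cn_wt] at this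
  obtain ⟨i, rfl⟩ := q4_misc.1 k k' this
  obtain ⟨j, hj⟩ := q4_misc.2.2.2.2.1 i
  have e : el (0, j) = (el (0, i))⁻¹ := eq_inv_of_mul_eq_one_left (by rw [← h.mul, hj, h.one])
  obtain ⟨r, hr⟩ := h.cent k hk (el (0, j) * g) (by
    rw [mul_assoc, mul_inv_eq_iff_eq_mul.1 hg, ← mul_assoc, e, eq_comm, ← mul_assoc,
      mul_left_inj, mul_inv_eq_iff_eq_mul, mul_assoc, ← h.mul, ← q4_misc.2.2.1, h.mul,
      inv_mul_cancel_left])
  exact ⟨qm (0, i) r, by rw [h.mul, hr, e, mul_inv_cancel_left]⟩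

theorem conj_iff {p q : Q4} (m : ℕ) (hp : (qp p m).2 = 0 ∧ (qp p m).1 ≠ 0 ∧ (qp q m).2 = 0)
    (c : IsConj (el p) (el q)) : ∃ r, qm r p = qm q r := by
  obtain ⟨g, hg⟩ := isConj_iff.1 c
  obtain ⟨r, rfl⟩ := h.mem hp.2.1 (k' := (qp q m).1) (g := g) (by
    rw [← hp.1, Prod.mk.eta, hp.1, ← hp.2.2, Prod.mk.eta, h.pow, h.pow, ← hg, conj_pow])
  exact ⟨r, h.inj (by rw [h.mul, h.mul, ← hg, inv_mul_cancel_right])⟩

theorem act (r : Q4) (x : K3) : el r * el (x, 0) * (el r)⁻¹ = el (eS r.2 x, 0) := by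
  rw [mul_inv_eq_iff_eq_mul, ← congrArg el (q4_misc.2.2.2.1 r), h.mul, mul_assoc, ← h.mul,
    q4_misc.2.2.1, h.mul, ← mul_assoc, ← mul_assoc, ← h.mul, ← h.mul (_, 0) (_, 0), q4_misc.2.1,
    q4_misc.2.1, add_comm]

theorem mod : Mod eS univ fun k => el (k, 0) where
  add x y := by rw [← h.mul, q4_misc.2.1]
  inj x y c := congrArg Prod.fst (h.inj c)
  three := q4_misc.2.2.2.2.2.1
  act g k k' hk hg := by
    obtain ⟨r, rfl⟩ := h.mem hk hg
    exact ⟨r.2, mem_univ _, h.act r⟩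
  real i _ := ⟨_, h.act (0, i)⟩
  cent g hg := by
    obtain ⟨⟨x, i⟩, rfl⟩ := h.mem (by decide) (hg (1, 0, 0))
    obtain rfl : i = 0 := q4_misc.2.2.2.2.2.2.1 i 0 fun y => by
      rw [q4_misc.2.2.2.2.2.2.2.1]
      exact congrArg Prod.fst (h.inj ((h.act (x, i) y).symm.trans (hg y)))
    exact ⟨x, rfl⟩
  faith i _ j _ := q4_misc.2.2.2.2.2.2.1 i j

theorem inH (a b c : K3) (hk : a ≠ 0 ∧ b ≠ 0 ∧ (wt c = 1 ∨ wt c = 2) ∧
    ((∀ i, eS i a ≠ b) ∨ ∀ i, eS i (-a) ≠ c)) {y : G} (h1 : IsConj (el (a, 0)) y)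
    (h2 : IsConj (el (b, 0)) (y⁻¹ * el (c, 0))) : ∃ p, el p = y := by
  obtain ⟨a0, b0, hc, hk⟩ := hk
  have c0 : c ≠ 0 := by rintro rfl; revert hc; decide
  have M := h.mod
  have o : ∀ {k : K3} {y : G}, k ≠ 0 → IsConj (el (k, 0)) y → orderOf y = 3 := fun hk c => by
    obtain ⟨u, rfl⟩ := isConj_iff.1 c
    rw [Small.orderOf_conj', M.ord hk]
  rcases tri333_cases (o a0 h1) (o b0 h2) (by rw [mul_inv_cancel_left, M.ord c0]) with
    ⟨K, hK, h3, h4, k, h5, h6⟩ | ⟨h3, h4⟩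
  · have t : el (c, 0) = y * y * ((y⁻¹ * el (c, 0))⁻¹ * y)⁻¹ := by group
    obtain ⟨v, h7, v1, v3, h8⟩ := exists_fixed hK (z := el (c, 0))
      (t ▸ mul_mem (mul_mem h3 h3) (le_normalizer (inv_mem h4))) (M.cube c) h5 h6
    obtain ⟨⟨u, i⟩, rfl⟩ := h.cent c c0 v h8.symm
    obtain rfl : i = 0 := q4_misc.2.2.2.2.2.2.2.2 c hc i (congrArg Prod.fst (h.inj
      ((h.act (u, i) c).symm.trans (by rw [← h8, mul_inv_cancel_right])))) (by
        rw [pow_three', ← h.mul, ← h.mul, ← h.one] at v3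
        exact congrArg Prod.snd (h.inj v3))
    have y3 : y ^ 3 = 1 := o a0 h1 ▸ pow_orderOf_eq_one y
    have h9 : Commute (y * y) (el (u, 0)) := by
      have := (show Commute _ _ from h8).mul_left (hK _ h4 _ h7)
      rwa [show el (c, 0) * ((y⁻¹ * el (c, 0))⁻¹ * y) = y * y by group] at this
    exact h.cent u (fun e => v1 (by rw [e, h.one])) y (by
      have := h9.mul_left h9
      rwa [show y * y * (y * y) = y ^ 3 * y by simp only [pow_three', mul_assoc], y3, one_mul] at this)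
  · exfalso
    rcases hk with hk | hk
    · obtain ⟨i, -, c⟩ := (M.conj_iff a0).1 ((h1.trans h3).trans h2.symm)
      exact hk i c
    · obtain ⟨u, rfl⟩ := isConj_iff.1 h1
      rw [mul_inv_cancel_left] at h4
      obtain ⟨i, -, c⟩ := (M.conj_iff (neg_ne_zero.2 a0)).1 (IsConj.trans
        (isConj_iff.2 ⟨u, by rw [M.neg]; group⟩) h4)
      exact hk i c

theorem o3 {k : K3} {p : Q4} (hk : k ≠ 0) (c : IsConj (el (k, 0)) (el p)) : qp p 3 = (0, 0) := by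
  obtain ⟨u, hu⟩ := isConj_iff.1 c
  exact h.inj (by rw [h.pow, ← hu, conj_pow, h.mod.cube, h.one]; simp)

theorem toR {p : Q4} (h2 : p.2 ≠ 0) (h3 : qp p 3 = (0, 0)) : IsConj (el p) (el (0, 1)) :=
  h.conj_of ((by decide +kernel : ∀ p : Q4, p.2 ≠ 0 → qp p 3 = (0, 0) → ∃ r, qm r p = qm (0, 1) r) p h2 h3)

theorem key {a : K3} (ha : wt a = 1 ∨ wt a = 2) {p : Q4} (c : IsConj (el (a, 0)) (el p)) : p.2 = 0 := by
  by_contra h2
  have a0 : a ≠ 0 := by rintro rfl; revert ha; decide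
  obtain ⟨g, hg⟩ := isConj_iff.1 (c.trans (h.toR h2 (h.o3 a0 c)))
  have cm : el ((1, 1, 1), 0) * el (0, 1) = el (0, 1) * el ((1, 1, 1), 0) := by
    rw [← h.mul, ← h.mul]; congr 1
  obtain ⟨⟨u, i⟩, e⟩ := h.cent a a0 (g⁻¹ * el ((1, 1, 1), 0) * g) (by
    rw [← hg] at cm
    calc g⁻¹ * el ((1, 1, 1), 0) * g * el (a, 0) = g⁻¹ * (el ((1, 1, 1), 0) * (g * el (a, 0) * g⁻¹)) * g := by group
      _ = _ := by rw [cm]; group)
  have cc : IsConj (el ((1, 1, 1), 0)) (el (u, i)) := isConj_iff.2 ⟨g⁻¹, by rw [e, inv_inv]⟩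
  have hcm : el (u, i) * el (a, 0) = el (a, 0) * el (u, i) := by
    rw [e, ← hg] at *
    calc g⁻¹ * el ((1, 1, 1), 0) * g * el (a, 0) = g⁻¹ * (el ((1, 1, 1), 0) * (g * el (a, 0) * g⁻¹)) * g := by group
      _ = _ := by rw [cm]; group
  obtain rfl : i = 0 := q4_misc.2.2.2.2.2.2.2.2 a ha i (congrArg Prod.fst (h.inj
    ((h.act (u, i) a).symm.trans (by rw [hcm, mul_inv_cancel_right]))))
    ((by decide +kernel : ∀ p : Q4, qp p 3 = (0, 0) → mu (mu p.2 p.2) p.2 = 0) _ (h.o3 (by decide) cc))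
  have u0 : u ≠ 0 := by
    rintro rfl
    rw [h.one, isConj_one_left, ← h.one] at cc
    exact absurd (h.inj cc) (by decide)
  obtain ⟨r, rfl⟩ := h.mem (k' := (1, 1, 1)) u0 (g := g) (by rw [e]; group)
  rw [h.act] at hg
  have z : (0 : Fin 24) = 1 := congrArg Prod.snd (h.inj hg)
  exact absurd z (by decide)

theorem pairs (a b c : K3) (hk : a ≠ 0 ∧ b ≠ 0 ∧ (wt c = 1 ∨ wt c = 2) ∧
    ((∀ i, eS i a ≠ b) ∨ ∀ i, eS i (-a) ≠ c)) (ha : wt a = 1 ∨ wt a = 2) :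
    Nat.card {x : G × G // x.1 * el (a, 0) * x.1⁻¹ * (x.2 * el (b, 0) * x.2⁻¹) = el (c, 0)} =
      [648, 108, 54, 81].getD (wt a) 0 * [648, 108, 54, 81].getD (wt b) 0 *
        #(univ.filter fun x : K3 => wt a = wt x ∧ wt b = wt (-x + c)) := by
  have a0 := hk.1
  have b0 := hk.2.1
  have k1 : ∀ x : K3, x ≠ 0 → (qp (x, 0) 1).2 = 0 ∧ (qp (x, 0) 1).1 ≠ 0 := by decide +kernel
  have k2 : ∀ x y, (∃ i ∈ univ, eS i x = y) ↔ wt x = wt y := by decide +kernel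
  have M := h.mod
  rw [GW.card_conj_pairs, h.card_cent 1 (k1 a a0), h.card_cent 1 (k1 b b0), cn_wt, cn_wt]
  congr 1
  rw [← Fintype.card_subtype, ← Nat.card_eq_fintype_card]
  refine (Nat.card_eq_of_bijective (fun x : {x : K3 // wt a = wt x ∧ wt b = wt (-x + c)} =>
    (⟨el (x, 0), (M.conj_iff a0).2 ((k2 _ _).2 x.2.1), by
      rw [← M.neg, ← M.add]; exact (M.conj_iff b0).2 ((k2 _ _).2 x.2.2)⟩ :
      {y : G // IsConj (el (a, 0)) y ∧ IsConj (el (b, 0)) (y⁻¹ * el (c, 0))}))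
    ⟨fun x y c => Subtype.ext (M.inj (congrArg Subtype.val c)), fun ⟨y, h1, h2⟩ => ?_⟩).symm
  obtain ⟨⟨x, j⟩, rfl⟩ := h.inH a b c hk h1 h2
  obtain rfl : j = 0 := h.key ha h1
  rw [← M.neg, ← M.add] at h2
  exact ⟨⟨x, (k2 _ _).1 ((M.conj_iff a0).1 h1), (k2 _ _).1 ((M.conj_iff b0).1 h2)⟩, rfl⟩

theorem pairs4 (hr : IsConj (el ((1, 1, 1), 0)) (el (0, 1))) :
    Nat.card {x : G × G // x.1 * el ((1, 1, 1), 0) * x.1⁻¹ * (x.2 * el ((1, 1, 1), 0) * x.2⁻¹) = el ((1, 1, 0), 0)} =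
      249318 := by
  have k1 : ∀ x : K3, x ≠ 0 → (qp (x, 0) 1).2 = 0 ∧ (qp (x, 0) 1).1 ≠ 0 := by decide +kernel
  have k2 : ∀ x y, (∃ i ∈ univ, eS i x = y) ↔ wt x = wt y := by decide +kernel
  have M := h.mod
  have tt : ∀ p : Q4, IsConj (el ((1, 1, 1), 0)) (el p) ↔ qp p 3 = (0, 0) ∧ (p.2 = 0 → wt p.1 = 3) := by
    rintro ⟨x, j⟩
    refine ⟨fun c => ⟨h.o3 (by decide) c, ?_⟩, fun ⟨c1, c2⟩ => ?_⟩
    · rintro (rfl : j = 0)
      exact ((k2 _ _).1 ((M.conj_iff (by decide)).1 c)).symm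
    · by_cases hj : j = 0
      · subst hj
        exact (M.conj_iff (by decide)).2 ((k2 _ _).2 (c2 rfl).symm)
      · exact hr.trans (h.toR hj c1).symm
  have iv : ∀ p : Q4, qp p 3 = (0, 0) → (el p)⁻¹ * el ((1, 1, 0), 0) = el (qm (qm p p) ((1, 1, 0), 0)) := fun p hp => by
    have : el p ^ 3 = 1 := by rw [← h.pow, hp, h.one]
    rw [h.mul, h.mul, inv_eq_of_mul_eq_one_right (b := el p * el p) (by rw [← this, pow_three])]
  rw [GW.card_conj_pairs, h.card_cent 1 (k1 _ (by decide)), cn_wt]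
  have : Nat.card {y : G // IsConj (el ((1, 1, 1), 0)) y ∧ IsConj (el ((1, 1, 1), 0)) (y⁻¹ * el ((1, 1, 0), 0))} = 38 := by
    rw [← Nat.card_eq_of_bijective (fun p : {p : Q4 // (qp p 3 = (0, 0) ∧ (p.2 = 0 → wt p.1 = 3)) ∧
        (qp (qm (qm p p) ((1, 1, 0), 0)) 3 = (0, 0) ∧ ((qm (qm p p) ((1, 1, 0), 0)).2 = 0 →
          wt (qm (qm p p) ((1, 1, 0), 0)).1 = 3))} => (⟨el p, (tt _).2 p.2.1, by
        rw [iv _ p.2.1.1]; exact (tt _).2 p.2.2⟩ :
        {y : G // IsConj (el ((1, 1, 1), 0)) y ∧ IsConj (el ((1, 1, 1), 0)) (y⁻¹ * el ((1, 1, 0), 0))}))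
      ⟨fun x y c => Subtype.ext (h.inj (congrArg Subtype.val c)), fun ⟨y, h1, h2⟩ => by
        obtain ⟨p, rfl⟩ := h.inH _ _ _ (by decide +kernel) h1 h2
        have t1 := (tt p).1 h1
        rw [iv _ t1.1] at h2
        exact ⟨⟨p, t1, (tt _).1 h2⟩, rfl⟩⟩, Nat.card_eq_fintype_card, Fintype.card_subtype]
    decide +kernel
  rw [this]
  decide +kernel

end Sn

namespace Sn

variable {el : Q4 → G} (h : Sn el)
include h

theorem orth (i j : Fin 9) : ∑ χ : IrrCharacter G, χ.1 (el (gs i)) * χ.1 (el (gs j)) =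
    if i = j then (cs i : ℂ) else 0 := by
  have re : ∀ χ : IrrCharacter G, χ.1 (el (gs j)) = conj (χ.1 (el (gs j))) := fun χ => by
    rw [← χ.2.apply_inv, χ.2.isClassFunction.apply_eq_of_isConj (h.conj_of (gs_cn j).2.2.2.2),
      h.pow, eq_inv_of_mul_eq_one_left (a := el (gs j) ^ 35) (by
        rw [← pow_succ, ← h.pow, (gs_cn j).2.2.2.1, h.one])]
  rw [sum_congr rfl fun χ _ => by rw [re χ]]
  split_ifs with c
  · rw [c, sum_irr_mul_conj_of_isConj (IsConj.refl _), h.card_cent _ (gs_cn j).2.1, (gs_cn j).1]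
  have k : ∀ i j, j < i → ¬ IsConj (el (gs i)) (el (gs j)) := fun i j hj c =>
    let ⟨r, hr⟩ := h.conj_iff _ ⟨(gs_cn i).2.1.1, (gs_cn i).2.1.2, (gs_nc i j hj).1⟩ c
    (gs_nc i j hj).2 r hr
  exact sum_irr_mul_conj_of_not_isConj fun e => (lt_or_gt_of_ne c).elim
    (fun c => k _ _ c e.symm) fun c => k _ _ c e

theorem s2 {u v : IrrCharacter G → ℤ} {i j k l : Fin 9} {a b c d : ℂ}
    (hu : ∀ χ : IrrCharacter G, (u χ : ℂ) = a * χ.1 (el (gs i)) + b * χ.1 (el (gs j)))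
    (hv : ∀ χ : IrrCharacter G, (v χ : ℂ) = c * χ.1 (el (gs k)) + d * χ.1 (el (gs l))) {n : ℤ}
    (e : a * c * (if i = k then (cs i : ℂ) else 0) + a * d * (if i = l then (cs i : ℂ) else 0) +
      b * c * (if j = k then (cs j : ℂ) else 0) + b * d * (if j = l then (cs j : ℂ) else 0) = n) :
    ∑ χ, u χ * v χ = n := by
  apply Int.cast_injective (α := ℂ)
  rw [← e, ← h.orth, ← h.orth, ← h.orth, ← h.orth]
  simp only [Int.cast_sum, Int.cast_mul, hu, hv, mul_sum, ← sum_add_distrib]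
  exact sum_congr rfl fun χ _ => by ring

theorem sup_orth {u v : IrrCharacter G → ℤ} {l l' : Fin 9 × Fin 9} (hu : Sup el u l)
    (hv : Sup el v l') (e : l.1 ≠ l'.1 ∧ l.1 ≠ l'.2 ∧ l.2 ≠ l'.1 ∧ l.2 ≠ l'.2) :
    ∑ χ, u χ * v χ = 0 :=
  let ⟨_, _, hu⟩ := hu
  let ⟨_, _, hv⟩ := hv
  h.s2 hu hv (by simp [e])

theorem sup_deg {u : IrrCharacter G → ℤ} {l : Fin 9 × Fin 9} (hu : Sup el u l) :
    ∑ χ, u χ * charDegree χ.1 = 0 := by
  obtain ⟨a, b, hu⟩ := hu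
  have g1 : ∀ i, el (gs i) ≠ 1 := fun i c => (gs_cn i).2.2.1 (h.inj (c.trans h.one.symm))
  apply Int.cast_injective (α := ℂ)
  push_cast
  rw [sum_congr rfl (g := fun χ => a * (χ.1 1 * χ.1 (el (gs l.1))) + b * (χ.1 1 *
    χ.1 (el (gs l.2)))) fun χ _ => by rw [hu, χ.2.apply_one_eq_charDegree]; ring, sum_add_distrib,
    ← mul_sum, ← mul_sum, sum_irr_degree_mul (g1 _), sum_irr_degree_mul (g1 _)]
  simp

theorem ord {p : Q4} {n : ℕ} (hn : Rt p n) : orderOf (el p) = n :=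
  (orderOf_eq_iff hn.1).2 ⟨by rw [← h.pow, hn.2.1, h.one], fun m h1 h2 c =>
    hn.2.2.1 m h1 h2 (h.inj (by rw [h.pow, c, h.one]))⟩

theorem val (i : Fin 9) (n : ℕ) (hn : Rt (gs i) n) : ∃ A : IrrCharacter G → ℤ,
    (∀ χ : IrrCharacter G, χ.1 (el (gs i)) = A χ) ∧ Sup el A (i, i) ∧ A (irrOne G) = 1 ∧
      ∑ χ, A χ * A χ = cs i := by
  choose A hA using fun χ : IrrCharacter G =>
    χ.2.isCharacter.isGeneralizedCharacter.exists_int_of_forall_pow (g := el (gs i)) fun m hm => by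
      rw [← pow_mod_orderOf, h.ord hn, ← h.pow, eq_comm]
      exact χ.2.isClassFunction.apply_eq_of_isConj (h.conj_of (hn.2.2.2 _ (Nat.mod_lt _ hn.1)
        (by rwa [Nat.Coprime, ← Nat.gcd_rec, Nat.gcd_comm, ← h.ord hn])))
  refine ⟨A, hA, ⟨1, 0, fun χ => by simp [hA]⟩, by exact_mod_cast (hA _).symm.trans (irrOne_apply _),
    ?_⟩
  rw [sum_int_self hA, h.card_cent _ (gs_cn i).2.1, (gs_cn i).1]

set_option synthInstance.maxSize 2000 in
theorem jmult {χ : IrrCharacter G} {A B C : ℤ} (hA : χ.1 (el (gs 0)) = A)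
    (hB : χ.1 (el (gs 4)) = B) (hC : χ.1 (el (gs 6)) = C) :
    27 ∣ charDegree χ.1 + 6 * A + 12 * B + 8 * C ∧ 9 ∣ A + 4 * B + 4 * C ∧
      9 ∣ 2 * A + 5 * B + 2 * C := by
  obtain ⟨w, hw⟩ := exists_omega
  have k := fun c T hT => h.mod.mult_tab (lin3 c) hw (rp := rp4) (by decide +kernel)
    (reps := [0, (1, 0, 0), (1, 1, 0), (1, 1, 1)]) (by decide +kernel) T hT χ
  obtain ⟨m0, h0⟩ := k (0, 0, 0) [(1, 0), (6, 0), (12, 0), (8, 0)] (by decide +kernel)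
  obtain ⟨m1, h1⟩ := k (1, 0, 0) [(1, 0), (3, 0), (0, 0), (-4, 0)] (by decide +kernel)
  obtain ⟨m2, h2⟩ := k (1, 1, 0) [(1, 0), (0, 0), (-3, 0), (2, 0)] (by decide +kernel)
  simp only [List.zipWith_cons_cons, List.zipWith_nil_left, List.sum_cons, List.sum_nil,
    show el ((1, 0, 0), 0) = el (gs 0) from rfl, show el ((1, 1, 0), 0) = el (gs 4) from rfl,
    show el ((1, 1, 1), 0) = el (gs 6) from rfl, hA, hB, hC, h.one,
    χ.2.apply_one_eq_charDegree, show Fintype.card K3 = 27 from rfl] at h0 h1 h2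
  push_cast at h0 h1 h2
  have c : ∀ {a b : ℤ}, (a : ℂ) = b → a = b := fun h => Int.cast_injective h
  refine ⟨⟨m0, c ?_⟩, ⟨m0 - m1, c ?_⟩, ⟨m0 - m2, c ?_⟩⟩ <;> push_cast
  · linear_combination h0
  · linear_combination (h0 - h1) / 3
  · linear_combination (h0 - h2) / 3

theorem twelve {w : ℂ} (hw : w ^ 2 + w + 1 = 0) {χ : IrrCharacter G} {A U : ℤ}
    (hA : χ.1 (el (gs 0)) = A) (hU : χ.1 (el (gs 1)) = U) : ∃ x y : ℤ,
      (x : ℂ) = 1 / 2 * χ.1 (el (gs 2)) + 1 / 2 * χ.1 (el (gs 3)) ∧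
      (y : ℂ) = Complex.I * (1 + 2 * w) / 6 * χ.1 (el (gs 2)) +
        -(Complex.I * (1 + 2 * w) / 6) * χ.1 (el (gs 3)) ∧ 4 ∣ A + U + 2 * x ∧ 4 ∣ A - U + 2 * y := by
  have w3 : w ^ 3 = 1 := by linear_combination (w - 1) * hw
  have g12 : el (gs 2) ^ (11 + 1) = 1 := by
    rw [← h.pow, show qp (gs 2) (11 + 1) = (0, 0) by decide +kernel, h.one]
  have v : ∀ l i, (∃ r, qm r (qp (gs 2) l) = qm (gs i) r) →
      χ.1 (el (gs 2) ^ l) = χ.1 (el (gs i)) := fun l i c => by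
    rw [← h.pow]; exact χ.2.isClassFunction.apply_eq_of_isConj (h.conj_of c)
  have k : ∀ u : ℂ, u ^ 4 = 1 → ∃ z : ℤ, 4 * (z : ℂ) = A + U * u ^ 2 +
      ((u * (1 - w) + u ^ 3 * (1 - w ^ 2)) * χ.1 (el (gs 2)) +
        (u * (1 - w ^ 2) + u ^ 3 * (1 - w)) * χ.1 (el (gs 3))) / 3 := fun u hu => by
    have k : ∀ t : ℂ, t ^ 3 = 1 → ∃ m : ℤ, ∑ l ∈ range 12, χ.1 (el (gs 2) ^ l) *
        (t ^ (l % 3) * u ^ (l % 4)) = 12 * m := fun t ht => by
      obtain ⟨m, hm⟩ := cyc_mult g12 (ζ := t * u) (by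
        rw [mul_pow, show 11 + 1 = 3 * 4 from rfl, pow_mul, ht, mul_comm 3, pow_mul, hu]; simp) χ
      exact ⟨m, by
        simpa only [mul_pow, ← pow_eq_pow_mod _ ht, ← pow_eq_pow_mod _ hu, Nat.cast_ofNat,
          Nat.reduceAdd] using hm⟩
    obtain ⟨m0, h0⟩ := k 1 (by simp)
    obtain ⟨m1, h1⟩ := k w w3
    simp only [sum_range_succ, sum_range_zero, Nat.reduceMod, v 1 2 (by decide +kernel),
      v 2 1 (by decide +kernel), v 4 0 (by decide +kernel), v 5 3 (by decide +kernel),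
      v 7 3 (by decide +kernel), v 8 0 (by decide +kernel), v 10 1 (by decide +kernel),
      v 11 2 (by decide +kernel), hA, hU] at h0 h1
    exact ⟨m0 - m1, by
      push_cast; linear_combination (h1 - h0) / 3 - (A + U * u ^ 2) / 3 * hw⟩
  obtain ⟨z0, e0⟩ := k 1 (by simp)
  obtain ⟨z2, e2⟩ := k (-1) (by norm_num)
  obtain ⟨z1, e1⟩ := k Complex.I Complex.I_pow_four
  obtain ⟨z3, e3⟩ := k (-Complex.I) (by rw [neg_pow, Complex.I_pow_four]; norm_num)
  have i2 := Complex.I_sq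
  have c : ∀ {a b : ℤ}, (a : ℂ) = b → a = b := fun h => Int.cast_injective h
  refine ⟨z0 - z2, z3 - z1, ?_, ?_, ⟨z0, c ?_⟩, ⟨z3, c ?_⟩⟩ <;> push_cast
  · linear_combination (e0 - e2) / 4 - (χ.1 (el (gs 2)) + χ.1 (el (gs 3))) / 6 * hw
  · linear_combination (e3 - e1) / 4 - Complex.I / 6 * (χ.1 (el (gs 2)) - χ.1 (el (gs 3))) * hw -
      Complex.I * ((1 - w ^ 2) * χ.1 (el (gs 2)) + (1 - w) * χ.1 (el (gs 3))) / 6 * i2
  · linear_combination -(e0 + e2) / 2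
  · linear_combination -(e1 + e3) / 2 - U * i2

end Sn

set_option maxHeartbeats 4000000 in
theorem Sn.false {el : Q4 → G} (h : Sn el) (hr : IsConj (el ((1, 1, 1), 0)) (el (0, 1))) : False := by
  obtain ⟨w, hw⟩ := exists_omega
  obtain ⟨A, hA, cA, A1, sA⟩ := h.val 0 3 (by decide +kernel)
  obtain ⟨U, hU, cU, U1, sU⟩ := h.val 1 6 (by decide +kernel)
  obtain ⟨B, hB, cB, B1, sB⟩ := h.val 4 3 (by decide +kernel)
  obtain ⟨W, hW, cW, W1, sW⟩ := h.val 5 6 (by decide +kernel)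
  obtain ⟨C, hC, cC, C1, sC⟩ := h.val 6 3 (by decide +kernel)
  obtain ⟨P, hP, cP, P1, sP⟩ := h.val 7 9 (by decide +kernel)
  obtain ⟨R, hR, cR, R1, sR⟩ := h.val 8 9 (by decide +kernel)
  choose x y hx hy dx dy using fun χ => h.twelve hw (hA χ) (hU χ)
  have cx : Sup el x (2, 3) := ⟨_, _, hx⟩
  have cy : Sup el y (2, 3) := ⟨_, _, hy⟩
  have i2 := Complex.I_sq
  have sx : ∑ χ, x χ * x χ = 6 := h.s2 hx hx (by simp [cs]; norm_num)
  have sy : ∑ χ, y χ * y χ = 2 := h.s2 hy hy (by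
    simp [cs]; linear_combination (-8 / 3) * hw + 2 / 3 * (1 + 2 * w) ^ 2 * i2)
  have sxy : ∑ χ, x χ * y χ = 0 := h.s2 hx hy (by simp [cs])
  have x1 : x (irrOne G) = 1 := by
    have := hx (irrOne G); rw [irrOne_apply, irrOne_apply] at this
    exact_mod_cast this.trans (show _ = (1 : ℂ) by ring)
  have y1 : y (irrOne G) = 0 := by
    have := hy (irrOne G); rw [irrOne_apply, irrOne_apply] at this
    exact_mod_cast this.trans (show _ = (0 : ℂ) by ring)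
  have hp : [A, U, x, y, B, W, C, P, R].Pairwise fun c c' => ∑ i, c i * c' i = 0 := by
    simp only [List.pairwise_cons, List.mem_cons, forall_eq_or_imp, List.not_mem_nil,
      IsEmpty.forall_iff, implies_true, List.Pairwise.nil, and_true]
    repeat' apply And.intro
    all_goals first | exact sxy | (apply h.sup_orth <;> first | assumption | decide)
  have jm := fun χ => h.jmult (hA χ) (hB χ) (hC χ)
  have d3 : ∀ i (N : IrrCharacter G → ℤ), Rt (gs i) 9 →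
      (∀ χ : IrrCharacter G, χ.1 (el (gs i)) = N χ) → ∀ χ, 3 ∣ N χ - charDegree χ.1 :=
    fun i N h1 hN χ => dvd_sub_of_mul χ.2.isCharacter Nat.prime_three (u := el (gs i)) (g := 1)
      ⟨2, h.ord h1⟩ (Commute.one_right _) (by rw [mul_one, hN])
      (by rw [χ.2.apply_one_eq_charDegree]; simp)
  have hM : ∀ r ∈ s4M, ∀ χ, (36 : ℤ) ∣ dot r (ty [A, U, x, y, B, W, C, P, R] χ) :=
    fun r hr χ => by
      obtain ⟨⟨m1, _⟩, ⟨m2, _⟩, ⟨m3, _⟩⟩ := jm χ
      obtain ⟨n1, _⟩ := dx χ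
      obtain ⟨n2, _⟩ := dy χ
      obtain ⟨n3, _⟩ := d3 7 P (by decide +kernel) hP χ
      obtain ⟨n4, _⟩ := d3 8 R (by decide +kernel) hR χ
      obtain ⟨n5, _⟩ := dvd_sub_of_mul χ.2.isCharacter Nat.prime_two (u := el (0, 3))
        (g := el (gs 4)) ⟨1, h.ord (by decide +kernel)⟩
        (show _ = _ by rw [← h.mul, ← h.mul]; rfl) (by rw [← h.mul]; exact hW χ) (hB χ)
      simp only [s4M, List.mem_cons, List.not_mem_nil, or_false] at hr
      rcases hr with rfl | rfl | rfl | rfl | rfl | rfl | rfl | rfl | rfl <;>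
        simp only [ty, List.map_cons, List.map_nil, dot_cons, dot_nil] <;> omega
  have hd := fun L w e => dot_coords' (m := 36) (by decide) (L := L) (w := w) hM e
  have vA : ∀ χ : IrrCharacter G, χ.1 (el ((1, 0, 0), 0)) =
      dot [0, 0, 3, 3, -4, -8, -6, 4, -3] (ty (coords _ s4M 36) χ) :=
    fun χ => by rw [hd _ [1, 0, 0, 0, 0, 0, 0, 0, 0] (by decide)]; exact (hA χ).trans (by simp [ty])
  have vB : ∀ χ : IrrCharacter G, χ.1 (el ((1, 1, 0), 0)) =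
      dot [-3, -3, 0, 0, 2, -2, 0, -2, 0] (ty (coords _ s4M 36) χ) :=
    fun χ => by rw [hd _ [0, 0, 0, 0, 1, 0, 0, 0, 0] (by decide)]; exact (hB χ).trans (by simp [ty])
  have vC : ∀ χ : IrrCharacter G, χ.1 (el ((1, 1, 1), 0)) =
      dot [3, 3, -3, -3, -1, 4, -3, 1, 3] (ty (coords _ s4M 36) χ) :=
    fun χ => by rw [hd _ [0, 0, 0, 0, 0, 0, 1, 0, 0] (by decide)]; exact (hC χ).trans (by simp [ty])
  have ht : ty (coords [A, U, x, y, B, W, C, P, R] s4M 36) (irrOne G) =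
      [-1, 0, -1, 0, -1, 0, 0, 0, 0] := by
    rw [ty_coords]
    simp only [ty, List.map_cons, List.map_nil, A1, U1, x1, y1, B1, W1, C1, P1, R1]
    decide
  obtain ⟨sol, hsol, X, s, d, hs, hd', d0, h3, h4, h5, -, h2⟩ := exists_degrees _ s4_check (by
      rw [gram_coords (ds := [108, 12, 6, 2, 54, 6, 81, 9, 9]) (by decide) hp (by
        simp only [List.map_cons, List.map_nil, sA, sU, sx, sy, sB, sW, sC, sP, sR]
        decide) hM]
      decide +kernel) ht fun χ => .inr fun _ _ => rfl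
  have r := Mod.degrees (fun v hv => by
    simp only [List.mem_cons, List.not_mem_nil, or_false] at hv
    rcases hv with rfl | rfl | rfl | rfl | rfl | rfl | rfl | rfl | rfl <;>
      exact h.sup_deg ‹_›) (by decide) hM (s4_nd sol hsol) hs hd' h3 h4
  rw [ht] at r
  have cg : ∀ i < sol.length, 27 ∣ d i + dot [-12, -12, -6, -6, -8, -40, -60, 8, 6]
      (sol.getD i []) := fun i hi => by
    rw [← (h3 i hi).2, dot_smul, hd', ← mul_add, hd _ [6, 0, 0, 0, 12, 0, 8, 0, 0] (by decide)]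
    refine Dvd.dvd.mul_left ?_ _
    simpa [ty, add_assoc] using (jm (X i)).1
  have r0 := r [1]
  have r1 := r [0, 1]
  have r2 := r [0, 0, 1]
  have r3 := r [0, 0, 0, 1]
  have r4 := r [0, 0, 0, 0, 1]
  have r5 := r [0, 0, 0, 0, 0, 1]
  have r6 := r [0, 0, 0, 0, 0, 0, 1]
  have r7 := r [0, 0, 0, 0, 0, 0, 0, 1]
  have r8 := r [0, 0, 0, 0, 0, 0, 0, 0, 1]
  have t1 := h2 _ _ _ _ _ _ vB vB vA
  have t2 := h2 _ _ _ _ _ _ vA vC vB
  have t3 := h2 _ _ _ _ _ _ vB vC vB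
  have t4 := h2 _ _ _ _ _ _ vC vC vB
  have t5 := h2 _ _ _ _ _ _ vA vA vB
  rw [h.pairs _ _ _ (by decide +kernel) (by decide +kernel)] at t1 t2 t3 t5
  rw [h.pairs4 hr] at t4
  rw [show _ * #(univ.filter _) = 11664 by decide +kernel] at t1
  rw [show _ * #(univ.filter _) = 17496 by decide +kernel] at t2 t3
  rw [show _ * #(univ.filter _) = 23328 by decide +kernel] at t5
  have q0 : ∀ i, (d i : ℚ) ≠ 0 := fun i => Int.cast_ne_zero.2 (d0 i)
  have N0 : (Nat.card G : ℚ) ≠ 0 := Nat.cast_ne_zero.2 Nat.card_pos.ne'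
  clear r h2 h3 h4
  simp only [List.mem_cons, List.not_mem_nil, or_false] at hsol
  rcases hsol with rfl | rfl | rfl | rfl
  · have c10 := cg 10 (by decide)
    have c11 := cg 11 (by decide)
    have c12 := cg 12 (by decide)
    simp [s4S0, sum_range_succ] at r0 r1 r2 r3 r4 r5 r6 r7 r8 t1 t2 t3 t4 c10 c11 c12 h5
    rw [show d 3 = d 2 by omega] at t1 t2 t3 t4
    have a1 : (Nat.card G : ℚ) * (1 / d 11 + 1 / d 12) = -4266 := by
      linear_combination (t4 - t3) / 54 + (t1 - t2) / 216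
    have a2 : (Nat.card G : ℚ) * (2 / d 2 - 1 / d 7) = -243 := by
      linear_combination (t2 - t1) / 24
    have := q0 11
    have := q0 12
    have := q0 2
    have := q0 7
    field_simp at a1 a2
    exact sn_arith (N := Nat.card G) (q := d 10) (r := d 11) (s := d 12) (e := d 2)
      (f := d 7) (by omega) (by omega) (by omega) (by omega) (by omega)
      (by apply Int.cast_injective (α := ℚ); push_cast; linear_combination a1)
      (by apply Int.cast_injective (α := ℚ); push_cast; linear_combination a2)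
      (by nlinarith [sq_nonneg (d 0), sq_nonneg (d 1), sq_nonneg (d 2), sq_nonneg (d 3),
        sq_nonneg (d 4), sq_nonneg (d 5), sq_nonneg (d 6), sq_nonneg (d 7), sq_nonneg (d 8),
        sq_nonneg (d 9), sq_nonneg (d 10)])
      (by linarith [sq_nonneg (d 0), sq_nonneg (d 1), sq_nonneg (d 2), sq_nonneg (d 3),
        sq_nonneg (d 4), sq_nonneg (d 5), sq_nonneg (d 6), sq_nonneg (d 7), sq_nonneg (d 8),
        sq_nonneg (d 9), sq_nonneg (d 10), sq_nonneg (d 11), sq_nonneg (d 12)])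
  · have c7 := cg 7 (by decide)
    have c8 := cg 8 (by decide)
    simp [s4S1, sum_range_succ] at t1 t2 t5 c7 c8
    have a1 : (2 / d 7 + 1 / d 8 : ℚ) = 0 := (mul_eq_zero.1 (by
      linear_combination (t1 + t5 - 2 * t2) / 18)).resolve_left N0
    have := q0 7
    have := q0 8
    field_simp at a1
    have : d 8 * 2 + d 7 = 0 := by
      apply Int.cast_injective (α := ℚ); push_cast; linear_combination a1
    omega
  · have := d0 0
    simp [s4S2, sum_range_succ] at r3 r6 r8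
    omega
  · have := d0 0
    simp [s4S3, sum_range_succ] at r3 r6 r8
    omega

theorem Sn.card {el : Q4 → G} (h : Sn el) : Nat.card G = 648 := by
  refine Sd.card (el := el) ⟨h.mul, h.inj, h.cent, fun k g p e => ?_⟩
  by_contra h2
  have c : IsConj (el (k, 0)) (el p) := isConj_iff.2 ⟨g, e⟩
  have k0 : k ≠ 0 := by
    rintro rfl
    rw [h.one, isConj_one_right, ← h.one] at c
    exact h2 (congrArg Prod.snd (h.inj c))
  rcases (by decide +kernel : ∀ k : K3, k ≠ 0 → (wt k = 1 ∨ wt k = 2) ∨ ∃ r, qm r ((1, 1, 1), 0) = qm (k, 0) r) k k0 with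
    w | w
  · exact h2 (h.key w c)
  · exact h.false (((h.conj_of w).trans c).trans (h.toR h2 (h.o3 k0 c)))

end Cfsg.Agent.Hig
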