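import Cfsg.Agent.S8R.QB2
import Cfsg.Agent.S8R.QD1

/-! Normalising a faithful `S₃ × S₃` in `Sym(6)` by an automorphism. -/

set_option autoImplicit false
set_option synthInstance.maxSize 100000
set_option synthInstance.maxHeartbeats 400000

namespace Cfsg.Agent.A9R

open Equiv Subgroup Cfsg.Agent.S8R

attribute [local instance 2000] qdDec

/-- the middle Coxeter generator -/
def S6nC (c1 c2 c4 c5 : Perm (Fin 6)) : Prop := ∃ c3, c3 * c1 = c1 * c3 ∧ c3 * c5 = c5 * c3 ∧ c3 * c3 = 1 ∧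
  c3 * c2 * c3 = c2 * c3 * c2 ∧ c4 * c3 * c4 = c3 * c4 * c3

/-- involutions commuting with an element of order 3 of the Sylow subgroup -/
def s6nL : List (Perm (Fin 6)) := [⟨qdT 0 1 2 3 4 5, qdT 0 1 2 3 4 5, by decide, by decide⟩,
  ⟨qdT 0 1 2 3 5 4, qdT 0 1 2 3 5 4, by decide, by decide⟩,
  ⟨qdT 0 1 2 4 3 5, qdT 0 1 2 4 3 5, by decide, by decide⟩,
  ⟨qdT 0 1 2 5 4 3, qdT 0 1 2 5 4 3, by decide, by decide⟩,
  ⟨qdT 0 2 1 3 4 5, qdT 0 2 1 3 4 5, by decide, by decide⟩,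
  ⟨qdT 1 0 2 3 4 5, qdT 1 0 2 3 4 5, by decide, by decide⟩,
  ⟨qdT 2 1 0 3 4 5, qdT 2 1 0 3 4 5, by decide, by decide⟩,
  ⟨qdT 3 4 5 0 1 2, qdT 3 4 5 0 1 2, by decide, by decide⟩,
  ⟨qdT 3 5 4 0 2 1, qdT 3 5 4 0 2 1, by decide, by decide⟩,
  ⟨qdT 4 3 5 1 0 2, qdT 4 3 5 1 0 2, by decide, by decide⟩,
  ⟨qdT 4 5 3 2 0 1, qdT 4 5 3 2 0 1, by decide, by decide⟩,
  ⟨qdT 5 3 4 1 2 0, qdT 5 3 4 1 2 0, by decide, by decide⟩,
  ⟨qdT 5 4 3 2 1 0, qdT 5 4 3 2 1 0, by decide, by decide⟩]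
/-- candidates for the middle generator -/
def s6nM : List (Perm (Fin 6)) := [⟨qdT 0 1 3 2 4 5, qdT 0 1 3 2 4 5, by decide, by decide⟩,
  ⟨qdT 0 1 4 3 2 5, qdT 0 1 4 3 2 5, by decide, by decide⟩,
  ⟨qdT 0 1 5 3 4 2, qdT 0 1 5 3 4 2, by decide, by decide⟩,
  ⟨qdT 0 3 2 1 4 5, qdT 0 3 2 1 4 5, by decide, by decide⟩,
  ⟨qdT 0 4 2 3 1 5, qdT 0 4 2 3 1 5, by decide, by decide⟩,
  ⟨qdT 0 5 2 3 4 1, qdT 0 5 2 3 4 1, by decide, by decide⟩,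
  ⟨qdT 1 0 3 2 5 4, qdT 1 0 3 2 5 4, by decide, by decide⟩,
  ⟨qdT 1 0 4 5 2 3, qdT 1 0 4 5 2 3, by decide, by decide⟩,
  ⟨qdT 1 0 5 4 3 2, qdT 1 0 5 4 3 2, by decide, by decide⟩,
  ⟨qdT 2 3 0 1 5 4, qdT 2 3 0 1 5 4, by decide, by decide⟩,
  ⟨qdT 2 4 0 5 1 3, qdT 2 4 0 5 1 3, by decide, by decide⟩,
  ⟨qdT 2 5 0 4 3 1, qdT 2 5 0 4 3 1, by decide, by decide⟩,
  ⟨qdT 3 1 2 0 4 5, qdT 3 1 2 0 4 5, by decide, by decide⟩,
  ⟨qdT 3 2 1 0 5 4, qdT 3 2 1 0 5 4, by decide, by decide⟩,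
  ⟨qdT 4 1 2 3 0 5, qdT 4 1 2 3 0 5, by decide, by decide⟩,
  ⟨qdT 4 2 1 5 0 3, qdT 4 2 1 5 0 3, by decide, by decide⟩,
  ⟨qdT 5 1 2 3 4 0, qdT 5 1 2 3 4 0, by decide, by decide⟩,
  ⟨qdT 5 2 1 4 3 0, qdT 5 2 1 4 3 0, by decide, by decide⟩]
/-- elements of order 3 -/
def s6nJ : List (Perm (Fin 6)) := [⟨qdT 1 2 0 3 4 5, qdT 2 0 1 3 4 5, by decide, by decide⟩,
  ⟨qdT 0 1 2 4 5 3, qdT 0 1 2 5 3 4, by decide, by decide⟩,
  ⟨qdT 0 1 2 5 3 4, qdT 0 1 2 4 5 3, by decide, by decide⟩,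
  ⟨qdT 1 2 0 4 5 3, qdT 2 0 1 5 3 4, by decide, by decide⟩,
  ⟨qdT 1 2 0 5 3 4, qdT 2 0 1 4 5 3, by decide, by decide⟩,
  ⟨qdT 2 0 1 4 5 3, qdT 1 2 0 5 3 4, by decide, by decide⟩]

theorem s6n_a : ∀ j ∈ s6nJ, ∀ c : Perm (Fin 6), c * j = j * c → c * c = 1 → c ∈ s6nL := by decide +kernel

theorem s6n_b : ∀ j ∈ [qdz, qdz * qda], j ∈ s6nJ ∧ ∀ c4 ∈ s6nL, c4 * j = j * c4 → ∀ c5 ∈ s6nL, c5 * j = j * c5 → c4 ≠ c5 →
    (c4 * c5) ^ 3 = 1 → c4 * c5 ∈ s6nJ ∧ ∀ c1 ∈ s6nL, c1 * j * (c1 * j) = 1 → c4 * c1 = c1 * c4 → c5 * c1 = c1 * c5 →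
    ∃ c3 ∈ s6nM, c3 * c1 = c1 * c3 ∧ c3 * c5 = c5 * c3 ∧ c3 * c3 = 1 ∧
      c3 * (c1 * j) * c3 = c1 * j * c3 * (c1 * j) ∧ c4 * c3 * c4 = c3 * c4 * c3 := by decide +kernel

theorem s6n_k : ∀ j ∈ [qdz, qdz * qda], ∀ c1 : Perm (Fin 6), c1 * c1 = 1 → c1 * j * (c1 * j) = 1 → ∀ c4, c4 * c4 = 1 →
    c4 * c1 = c1 * c4 → c4 * j = j * c4 → ∀ c5, c5 * c5 = 1 → c5 * c1 = c1 * c5 → c5 * j = j * c5 → c4 ≠ c5 →
    (c4 * c5) ^ 3 = 1 → ∃ c3, c3 * c1 = c1 * c3 ∧ c3 * c5 = c5 * c3 ∧ c3 * c3 = 1 ∧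
      c3 * (c1 * j) * c3 = c1 * j * c3 * (c1 * j) ∧ c4 * c3 * c4 = c3 * c4 * c3 := by
  intro j hj c1 h1 h2 c4 h4 k41 k4 c5 h5 k51 k5 n e
  obtain ⟨m, h⟩ := s6n_b j hj
  obtain ⟨m', h'⟩ := h c4 (s6n_a j m c4 k4 h4) k4 c5 (s6n_a j m c5 k5 h5) k5 n e
  obtain ⟨c3, -, h3⟩ := h' c1 (s6n_a _ m' c1 (by rw [← mul_assoc, ← k41, mul_assoc, ← k51, mul_assoc]) h1) h2 k41 k51
  exact ⟨c3, h3⟩

theorem s6n_c {c1 c2 c4 c5 : Perm (Fin 6)} (h1 : c1 * c1 = 1) (h2 : c2 * c2 = 1) (h4 : c4 * c4 = 1) (h5 : c5 * c5 = 1)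
    (e12 : (c1 * c2) ^ 3 = 1) (e45 : (c4 * c5) ^ 3 = 1) (n12 : c1 ≠ c2) (n45 : c4 ≠ c5) (k14 : c1 * c4 = c4 * c1)
    (k15 : c1 * c5 = c5 * c1) (k24 : c2 * c4 = c4 * c2) (k25 : c2 * c5 = c5 * c2) : S6nC c1 c2 c4 c5 := by
  have n : c1 * c2 ≠ 1 := fun e => n12 (mul_right_cancel (e.trans h2.symm))
  obtain ⟨g, hg⟩ : ∃ g, g * (c1 * c2) * g⁻¹ ∈ [qdz, qdz * qda] := by
    rcases qd_cl e12 n with h | h <;> obtain ⟨g, hg⟩ := isConj_iff.1 h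
    · exact ⟨g, by rw [hg]; simp⟩
    · exact ⟨g, by rw [hg]; simp⟩
  let f : Perm (Fin 6) ≃* Perm (Fin 6) := MulAut.conj g
  have e2 : c1 * (c1 * c2) = c2 := by rw [← mul_assoc, h1, one_mul]
  have c4j : c4 * (c1 * c2) = c1 * c2 * c4 := by rw [← mul_assoc, ← k14, mul_assoc, ← k24, mul_assoc]
  have c5j : c5 * (c1 * c2) = c1 * c2 * c5 := by rw [← mul_assoc, ← k15, mul_assoc, ← k25, mul_assoc]
  have k := s6n_k (f (c1 * c2)) hg (f c1) (by rw [← map_mul, h1, map_one]) (by rw [← map_mul, e2, ← map_mul, h2, map_one])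
    (f c4) (by rw [← map_mul, h4, map_one]) (by rw [← map_mul, ← map_mul, k14]) (by rw [← map_mul, ← map_mul, c4j])
    (f c5) (by rw [← map_mul, h5, map_one]) (by rw [← map_mul, ← map_mul, k15]) (by rw [← map_mul, ← map_mul, c5j])
    (f.injective.ne n45) (by rw [← map_mul, ← map_pow, e45, map_one])
  obtain ⟨c3, a1, a2, a3, a4, a5⟩ := k
  obtain ⟨c3, rfl⟩ := f.surjective c3
  simp only [← map_mul, f.apply_eq_iff_eq, map_eq_one_iff f f.injective, e2] at a1 a2 a3 a4 a5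
  exact ⟨c3, a1, a2, a3, a4, a5⟩

theorem s6n {c1 c2 c4 c5 : Perm (Fin 6)} (h1 : c1 * c1 = 1) (h2 : c2 * c2 = 1) (h4 : c4 * c4 = 1) (h5 : c5 * c5 = 1)
    (e12 : (c1 * c2) ^ 3 = 1) (e45 : (c4 * c5) ^ 3 = 1) (n12 : c1 ≠ c2) (n45 : c4 ≠ c5) (k14 : c1 * c4 = c4 * c1)
    (k15 : c1 * c5 = c5 * c1) (k24 : c2 * c4 = c4 * c2) (k25 : c2 * c5 = c5 * c2) :
    ∃ α : Perm (Fin 6) ≃* Perm (Fin 6), α (swap 0 1) = c1 ∧ α (swap 1 2) = c2 ∧ α (swap 3 4) = c4 ∧ α (swap 4 5) = c5 ∧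
      ∀ π, Perm.sign (α π) = Perm.sign π := by
  obtain ⟨c3, a1, a2, a3, a4, a5⟩ := s6n_c h1 h2 h4 h5 e12 e45 n12 n45 k14 k15 k24 k25
  have br : ∀ {a b : Perm (Fin 6)}, a * a = 1 → b * b = 1 → (a * b) ^ 3 = 1 → b * a * b = a * b * a := fun {a b} ha hb e => by
    have ia : a⁻¹ = a := inv_eq_of_mul_eq_one_right ha
    have ib : b⁻¹ = b := inv_eq_of_mul_eq_one_right hb
    have e' : a * b * a * (b * a * b) = 1 := by rw [← e, pow_three']; group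
    rw [eq_inv_of_mul_eq_one_right e', mul_inv_rev, mul_inv_rev, ia, ib, mul_assoc]
  let s : ℕ → Perm (Fin 6) := fun i => match i with
    | 0 => c1 | 1 => c2 | 2 => c3 | 3 => c4 | _ => c5
  obtain ⟨θ, hθ⟩ := qb_cox s 5 (fun i hi => by interval_cases i <;> assumption)
    (fun j hj i hi h => by
      interval_cases j <;> interval_cases i <;> first | omega | exact a1.symm | exact a2 | assumption)
    (fun i hi h => by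
      interval_cases i
      exacts [br h1 h2 e12, a4, a5, br h4 h5 e45, absurd h (by omega)])
  have p0 : θ (swap 0 1) = c1 := hθ 0 (by omega)
  have p1 : θ (swap 1 2) = c2 := hθ 1 (by omega)
  have p3 : θ (swap 3 4) = c4 := hθ 3 (by omega)
  have p4 : θ (swap 4 5) = c5 := hθ 4 (by omega)
  have inj : Function.Injective θ := by
    rw [← MonoidHom.ker_eq_bot_iff]
    by_contra c
    have k := Perm.alternatingGroup_le_of_normal (N := θ.ker) (by simp) ((nontrivial_iff_ne_bot _).2 c)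
    have q := k (show swap 0 1 * swap 1 2 ∈ alternatingGroup (Fin 6) from Perm.mem_alternatingGroup.2 (by decide +kernel))
    rw [MonoidHom.mem_ker, map_mul, p0, p1] at q
    exact absurd (mul_right_cancel (q.trans h2.symm)) n12
  let α := MulEquiv.ofBijective θ (Finite.injective_iff_bijective.1 inj)
  refine ⟨α, p0, p1, p3, p4, fun π => ?_⟩
  have hk : (Perm.sign.comp α.toMonoidHom).ker = alternatingGroup (Fin 6) := by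
    refine Perm.eq_alternatingGroup_of_index_eq_two ?_
    rw [← MonoidHom.comap_ker, index_comap_of_surjective (f := α.toMonoidHom) _ α.surjective]
    exact alternatingGroup.index_eq_two
  have : Perm.sign (α π) = 1 ↔ Perm.sign π = 1 := by
    rw [← Perm.mem_alternatingGroup (f := π), ← hk]; rfl
  rcases Int.units_eq_one_or (Perm.sign (α π)) with a | a <;> rcases Int.units_eq_one_or (Perm.sign π) with b | b <;>
    simp_all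

end Cfsg.Agent.A9R
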