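import Cfsg.Agent.S0051
import Mathlib.GroupTheory.SpecificGroups.Alternating

/-! Splitting of `N(⟨a⟩) = ⟨a⟩ ⋊ S₆` by Gaschütz. -/

set_option autoImplicit false

namespace Cfsg.Agent.A9R

open Equiv Equiv.Perm Subgroup Function

variable {G : Type*} [Group G]

theorem sp_tri {a x : G} (h3 : a ^ 3 = 1) (hx : x ∈ zpowers a) : x = 1 ∨ x = a ∨ x = a⁻¹ := by
  obtain ⟨i, rfl⟩ := hx
  have h3' : a ^ (3 : ℤ) = 1 := by exact_mod_cast h3
  have e : a ^ i = a ^ (i % 3) := by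
    conv_lhs => rw [← Int.mul_ediv_add_emod i 3, zpow_add, zpow_mul, h3', one_zpow, one_mul]
  have : i % 3 = 0 ∨ i % 3 = 1 ∨ i % 3 = 2 := by omega
  show a ^ i = 1 ∨ a ^ i = a ∨ a ^ i = a⁻¹
  rcases this with h | h | h <;> rw [e, h]
  · simp
  · simp
  · refine Or.inr (Or.inr (eq_inv_of_mul_eq_one_left ?_))
    rw [← h3']; group

theorem sp_cpl [Finite G] {J : Subgroup G} {a : G} (cm : ∀ x ∈ J, ∀ y ∈ J, x * y = y * x) (exp : ∀ x ∈ J, x ^ 3 = 1)
    (a1 : a ≠ 1) : ∃ A : Subgroup G, A ≤ J ∧ a ∉ A ∧ ∀ x ∈ J, ∃ u ∈ zpowers a, ∃ α ∈ A, x = u * α := by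
  have : Finite (Subgroup G) := Finite.of_injective _ SetLike.coe_injective
  obtain ⟨A, ⟨hA, haA⟩, mx⟩ := (Set.toFinite {A : Subgroup G | A ≤ J ∧ a ∉ A}).exists_maximal
    ⟨⊥, bot_le, by simpa using a1⟩
  refine ⟨A, hA, haA, fun x hx => ?_⟩
  have c : ∀ α ∈ A, Commute α x := fun α h => cm _ (hA h) _ hx
  let B : Subgroup G :=
    { carrier := {y | ∃ α ∈ A, ∃ i : ℤ, y = α * x ^ i}
      one_mem' := ⟨1, one_mem _, 0, by simp⟩
      mul_mem' := by
        rintro _ _ ⟨α, hα, i, rfl⟩ ⟨β, hβ, j, rfl⟩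
        refine ⟨α * β, mul_mem hα hβ, i + j, ?_⟩
        rw [zpow_add, mul_assoc, ← mul_assoc (x ^ i), ← ((c β hβ).zpow_right i).eq]; group
      inv_mem' := by
        rintro _ ⟨α, hα, i, rfl⟩
        refine ⟨α⁻¹, inv_mem hα, -i, ?_⟩
        rw [mul_inv_rev, ← zpow_neg, ((c _ (inv_mem hα)).zpow_right (-i)).eq] }
  have AB : A ≤ B := fun α h => ⟨α, h, 0, by simp⟩
  by_cases hB : a ∈ B
  · obtain ⟨α, hα, i, e⟩ := hB
    have c' := (c α hα).eq
    rcases sp_tri (exp x hx) (zpow_mem_zpowers x i) with h | h | h <;> rw [h] at e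
    · exact absurd (by rw [e, mul_one]; exact hα) haA
    · exact ⟨a, mem_zpowers _, α⁻¹, inv_mem hα, by rw [e, c']; group⟩
    · exact ⟨a⁻¹, inv_mem (mem_zpowers _), α, hα, by rw [e]; group⟩
  · have BJ : B ≤ J := by
      rintro _ ⟨α, hα, i, rfl⟩
      exact mul_mem (hA hα) (zpow_mem hx i)
    have := mx ⟨BJ, hB⟩ AB
    exact ⟨1, one_mem _, x, this ⟨1, one_mem _, 1, by simp⟩, by simp⟩

theorem sp [Finite G] {J : Subgroup G} {a : G} (comm : IsMulCommutative J) (exp : ∀ x ∈ J, x ^ 3 = 1)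
    (card : Nat.card J = 27) (ha : a ∈ J) (a1 : a ≠ 1)
    (f : normalizer (zpowers a : Set G) →* Perm (Fin 6)) (hs : Surjective f)
    (hk : ∀ g, f g = 1 ↔ (g : G) ∈ zpowers a) (hr : ∃ r, r * a * r⁻¹ = a⁻¹) :
    ∃ σ : Perm (Fin 6) →* G, (∀ π, ∃ h : σ π ∈ normalizer (zpowers a : Set G), f ⟨σ π, h⟩ = π) ∧
      (∀ π, σ π * a * (σ π)⁻¹ = if sign π = 1 then a else a⁻¹) ∧
      ∀ g ∈ normalizer (zpowers a : Set G), ∃ π, ∃ u ∈ zpowers a, g = u * σ π := by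
  classical
  have cm : ∀ x ∈ J, ∀ y ∈ J, x * y = y * x := fun x hx y hy =>
    congrArg Subtype.val (comm.is_comm.comm (⟨x, hx⟩ : J) ⟨y, hy⟩)
  have h3 := exp a ha
  have nrm : ∀ {g : G}, g * a * g⁻¹ ∈ zpowers a → g ∈ normalizer (zpowers a : Set G) := fun {g} hg =>
    mem_normalizer_fintype fun n hn => by
      obtain ⟨i, rfl⟩ := hn
      show g * a ^ i * g⁻¹ ∈ zpowers a
      rw [← conj_zpow]; exact zpow_mem hg i
  let L := normalizer (zpowers a : Set G)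
  have JL : J ≤ L := fun x hx => nrm (by rw [cm x hx a ha, mul_inv_cancel_right]; exact mem_zpowers _)
  have aL : zpowers a ≤ L := le_normalizer
  obtain ⟨A, hA, haA, hdec⟩ := sp_cpl cm exp a1
  have : Fact (Nat.Prime 3) := ⟨Nat.prime_three⟩
  have oa : orderOf a = 3 := orderOf_eq_prime h3 a1
  have eK : f.ker = (zpowers a).subgroupOf L := by ext g; rw [MonoidHom.mem_ker, hk, mem_subgroupOf]
  have cK : Nat.card f.ker = 3 := by
    rw [eK, Nat.card_congr (subgroupOfEquivOfLe aL).toEquiv, Nat.card_zpowers, oa]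
  have cL : Nat.card L = 2160 := by
    rw [← f.ker.card_mul_index, cK, index_ker, MonoidHom.range_eq_top.2 hs, card_top, Nat.card_perm]
    simp [Nat.factorial]
  have iU : (J.subgroupOf L).index = 80 := by
    have := (J.subgroupOf L).card_mul_index
    rw [cL, Nat.card_congr (subgroupOfEquivOfLe JL).toEquiv, card] at this
    omega
  have : IsMulCommutative f.ker := ⟨⟨fun x y => Subtype.ext (Subtype.ext
    (cm _ ((zpowers_le.2 ha) ((hk _).1 x.2)) _ ((zpowers_le.2 ha) ((hk _).1 y.2))))⟩⟩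
  obtain ⟨H, hH⟩ := S0051.result f.ker (J.subgroupOf L) (fun x hx => (zpowers_le.2 ha) ((hk _).1 hx))
    (by rw [cK, iU]; norm_num) (A.subgroupOf L) (fun x hx => hA hx)
    (eq_bot_iff.2 fun x hx => by
      have h1 : (x : G) ∈ A := hx.1
      rcases sp_tri h3 ((hk _).1 hx.2) with h | h | h
      · exact mem_bot.2 (Subtype.ext h)
      · exact absurd (h ▸ h1) haA
      · exact absurd (by simpa [h] using inv_mem h1) haA)
    (le_antisymm (sup_le (fun x hx => (zpowers_le.2 ha) ((hk _).1 hx)) fun x hx => hA hx) fun x hx => by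
      obtain ⟨u, hu, α, hα, e⟩ := hdec x hx
      have : x = (⟨u, aL hu⟩ : L) * ⟨α, JL (hA hα)⟩ := Subtype.ext e
      rw [this]
      exact mul_mem (mem_sup_left ((hk _).2 hu)) (mem_sup_right hα))
  have dec : ∀ l : L, ∃ k ∈ f.ker, ∃ h ∈ H, l = k * h := fun l => by
    obtain ⟨⟨k, h⟩, e⟩ := hH.2 l
    exact ⟨k, k.2, h, h.2, e.symm⟩
  have bij : Bijective (f.comp H.subtype) := by
    refine ⟨(injective_iff_map_eq_one _).2 fun x hx => ?_, fun π => ?_⟩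
    · exact Subtype.ext (disjoint_def.1 hH.disjoint hx x.2)
    · obtain ⟨l, rfl⟩ := hs π
      obtain ⟨k, hk', h, hh, rfl⟩ := dec l
      exact ⟨⟨h, hh⟩, by rw [map_mul, MonoidHom.mem_ker.1 hk', one_mul]; rfl⟩
  let e := MulEquiv.ofBijective _ bij
  let σ : Perm (Fin 6) →* G := L.subtype.comp (H.subtype.comp e.symm.toMonoidHom)
  have mσ : ∀ π, σ π ∈ L := fun π => (e.symm π).1.2
  have p3 : ∀ g ∈ L, ∃ π, ∃ u ∈ zpowers a, g = u * σ π := fun g hg => by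
    obtain ⟨k, hk', h, hh, e'⟩ := dec ⟨g, hg⟩
    refine ⟨e ⟨h, hh⟩, k, (hk _).1 hk', ?_⟩
    have : σ (e ⟨h, hh⟩) = h := by simp [σ]
    rw [this]; exact congrArg Subtype.val e'
  have ai : a ≠ a⁻¹ := fun h => a1 (by
    have : a * a = 1 := mul_eq_one_iff_eq_inv.2 h
    rw [pow_succ, pow_two, this, one_mul] at h3; exact h3)
  have two : ∀ π, σ π * a * (σ π)⁻¹ = a ∨ σ π * a * (σ π)⁻¹ = a⁻¹ := fun π =>
    (sp_tri h3 ((mem_normalizer_iff.1 (mσ π) a).1 (mem_zpowers a))).resolve_left fun h => a1 (by simpa using h)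
  have mu : ∀ π ρ, σ (π * ρ) * a * (σ (π * ρ))⁻¹ = σ π * (σ ρ * a * (σ ρ)⁻¹) * (σ π)⁻¹ := fun π ρ => by
    rw [map_mul]; group
  have iv : ∀ π, σ π * a⁻¹ * (σ π)⁻¹ = (σ π * a * (σ π)⁻¹)⁻¹ := fun π => by group
  let χ : Perm (Fin 6) →* ℤˣ := MonoidHom.mk' (fun π => if σ π * a * (σ π)⁻¹ = a then 1 else -1) fun π ρ => by
    rw [mu]
    rcases two π with h | h <;> rcases two ρ with h' | h' <;> simp only [h', iv, h, inv_inv, ai.symm] <;> simp
  have hχ : χ = sign := eq_sign_of_surjective_hom fun u => by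
    rcases Int.units_eq_one_or u with rfl | rfl
    · exact ⟨1, map_one _⟩
    · obtain ⟨r, hr⟩ := hr
      obtain ⟨π, u, hu, e'⟩ := p3 r (nrm (by rw [hr]; exact inv_mem (mem_zpowers _)))
      refine ⟨π, if_neg fun h => ai ?_⟩
      have cu : u * a = a * u := cm _ ((zpowers_le.2 ha) hu) _ ha
      rw [← hr, e']
      calc a = u * (σ π * a * (σ π)⁻¹) * u⁻¹ := by rw [h, cu]; group
        _ = _ := by group
  refine ⟨σ, fun π => ⟨mσ π, e.apply_symm_apply π⟩, fun π => ?_, p3⟩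
  rw [← hχ]
  show _ = if (if σ π * a * (σ π)⁻¹ = a then (1 : ℤˣ) else -1) = 1 then a else a⁻¹
  rcases two π with h | h <;> simp [h, ai.symm]

end Cfsg.Agent.A9R
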