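import Cfsg.Agent.Pres.Carm

/-! Carmichael's presentation of `Alt(9)` as a hom: `toA9`. (helper6) -/

set_option autoImplicit false
set_option maxRecDepth 100000
set_option linter.unusedSectionVars false

namespace Cfsg.Agent.A9R

open Subgroup Equiv

theorem toA9 {G : Type*} [Group G] {u v : Fin 9} (uv : u ≠ v) (x : Fin 9 → G) (h3 : ∀ i, i ≠ u → i ≠ v → x i ^ 3 = 1)
    (h2 : ∀ i j, i ≠ u → i ≠ v → j ≠ u → j ≠ v → i ≠ j → (x i * x j) ^ 2 = 1) (x1 : ∃ i, i ≠ u ∧ i ≠ v ∧ x i ≠ 1) :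
    ∃ φ : alternatingGroup (Fin 9) →* G, Function.Injective φ ∧
      (∀ (i : Fin 9) (p : alternatingGroup (Fin 9)), i ≠ u → i ≠ v → p.1 = Pres.c3 i u v → φ p = x i) ∧
      ∀ K : Subgroup G, (∀ i, i ≠ u → i ≠ v → x i ∈ K) → φ.range ≤ K := by
  let s : Finset (Fin 9) := (Finset.univ.erase u).erase v
  have ms : ∀ i, i ∈ s ↔ i ≠ u ∧ i ≠ v := fun i => by simp [s, and_comm]
  let y : Fin 9 → G × Perm (Fin 9) := fun i => (x i, Pres.c3 i u v)
  have L := Pres.carm (MonoidHom.snd G (Perm (Fin 9))) uv y s (by simp [ms]) (by simp [ms])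
    (fun i hi => Prod.ext (h3 i ((ms i).1 hi).1 ((ms i).1 hi).2) (Pres.c3_pow_three ((ms i).1 hi).1 ((ms i).1 hi).2 uv))
    (fun i hi j hj ij => Prod.ext (h2 i j ((ms i).1 hi).1 ((ms i).1 hi).2 ((ms j).1 hj).1 ((ms j).1 hj).2 ij)
      (Pres.c3_mul_sq ((ms i).1 hi).1 ((ms i).1 hi).2 uv ((ms j).1 hj).1 ((ms j).1 hj).2 ij))
    (fun _ _ => rfl)
  rw [show insert u (insert v s) = Finset.univ by
    ext i; by_cases a : i = u <;> by_cases b : i = v <;> simp [ms, a, b]] at L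
  set H := closure (y '' ↑s) with hH
  let p : H →* alternatingGroup (Fin 9) := ((MonoidHom.snd G (Perm (Fin 9))).comp H.subtype).codRestrict _
    fun a => Pres.altOn_univ.le (L.mem a.2)
  let e := MulEquiv.ofBijective p ⟨fun a b k => Subtype.ext (L.ext a.2 b.2 (congrArg Subtype.val k)), fun σ => by
    obtain ⟨a, ha, k⟩ := L.ex (σ := σ.1) (Pres.altOn_univ.ge σ.2)
    exact ⟨⟨a, ha⟩, Subtype.ext k⟩⟩
  let φ : alternatingGroup (Fin 9) →* G := ((MonoidHom.fst G (Perm (Fin 9))).comp H.subtype).comp e.symm.toMonoidHom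
  have hφ : ∀ a : H, φ (e a) = a.1.1 := fun a => by simp [φ]
  have hx : ∀ i ∈ s, y i ∈ H := fun i hi => subset_closure ⟨i, hi, rfl⟩
  have := alternatingGroup.isSimpleGroup (α := Fin 9) (by simp)
  obtain ⟨i, iu, iv, i1⟩ := x1
  refine ⟨φ, (MonoidHom.ker_eq_bot_iff φ).1 ((φ.normal_ker.eq_bot_or_eq_top).resolve_right fun k => i1 (by
    rw [← show φ (e ⟨_, hx i ((ms i).2 ⟨iu, iv⟩)⟩) = x i from hφ _, ← MonoidHom.mem_ker, k]; trivial)),
    fun j q ju jv k => ?_, fun K hK => ?_⟩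
  · rw [show q = e ⟨_, hx j ((ms j).2 ⟨ju, jv⟩)⟩ from Subtype.ext k]
    exact hφ _
  · rintro _ ⟨a, rfl⟩
    obtain ⟨b, rfl⟩ := e.surjective a
    rw [hφ]
    exact ((closure_le (K.comap (MonoidHom.fst G (Perm (Fin 9))))).2 (by
      rintro _ ⟨j, hj, rfl⟩
      exact hK j ((ms j).1 hj).1 ((ms j).1 hj).2) : H ≤ _) b.2

end Cfsg.Agent.A9R
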